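import Mathlib
import Cfsg.Agent.R2.PX.Comb

/-!
# Pattern X (S5771): combinatorics of the 56 weights, the facts (helper5)

* `p2_comm`, `p2_eq_three`, `p2_eq_neg_three`, `p2_cases`, `p2_op`;
* `exists_mv` : `p2 a b = 1` ⇒ some root maps `b` to `a`; `mv_unique` : the root is unique; `p2_of_mv` : the converse;
* `p2_add` : `p2 a m = p2 b m + 2 * pr r m` if the root `r` maps `b` to `a`.
-/

set_option autoImplicit false
set_option maxRecDepth 100000

namespace Cfsg.Agent.R2.PX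

open Cfsg Cfsg.Lie Module Matrix
open Cfsg.Agent.ChevalleyStructure.RootVec
open Cfsg.Agent.ChevalleyStructure.StEmbed
open Cfsg.Agent.H943.E7V.Block (D1)
open Cfsg.Agent.R2.T1

universe u

namespace Comb

theorem CT_len : CT.length = 56 := by decide +kernel

theorem RB_len : RB.length = 126 := by decide +kernel

theorem CT_split : CT.take 14 ++ ((CT.drop 14).take 14 ++ ((CT.drop 28).take 14 ++ CT.drop 42)) = CT := by
  conv_rhs => rw [← List.take_append_drop 14 CT, ← List.take_append_drop 14 (CT.drop 14), List.drop_drop,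
    ← List.take_append_drop 14 (CT.drop (14 + 14)), List.drop_drop]

theorem ent_mem : ∀ e ∈ CT, ent e.1 = e := by decide +kernel

theorem chkR_all {e : ℕ × List ℤ × List ℤ × ℕ × List ℕ} (he : e ∈ CT) : chkR e = true := by
  have h : CT.all chkR = true := by
    conv_lhs => rw [← CT_split]
    rw [List.all_append, List.all_append, List.all_append, chkR_a, chkR_b, chkR_c, chkR_d]
    rfl
  exact List.all_eq_true.1 h e he

theorem mem_zip_of {α β : Type*} : ∀ {l : List α} {m : List β} {x : α}, l.length = m.length → x ∈ l → ∃ y, (x, y) ∈ List.zip l m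
  | [], _, _, _, hx => absurd hx (List.not_mem_nil)
  | a :: l, [], _, h, _ => absurd h (by simp)
  | a :: l, b :: m, x, h, hx => by
    rw [List.zip_cons_cons]
    rcases List.mem_cons.1 hx with rfl | hx
    · exact ⟨b, List.mem_cons_self⟩
    · obtain ⟨y, hy⟩ := mem_zip_of (l := l) (m := m) (by simpa using h) hx
      exact ⟨y, List.mem_cons_of_mem _ hy⟩

theorem zipWith_all {α β : Type*} {g : α → β → Bool} : ∀ {l : List α} {m : List β}, (List.zipWith g l m).all (fun b => b) = true →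
    ∀ {x : α} {y : β}, (x, y) ∈ List.zip l m → g x y = true
  | [], _, _, x, y, hx => absurd hx (by simp)
  | a :: l, [], _, x, y, hx => absurd hx (by simp)
  | a :: l, b :: m, h, x, y, hx => by
    rw [List.zipWith_cons_cons, List.all_cons, Bool.and_eq_true] at h
    rw [List.zip_cons_cons] at hx
    rcases List.mem_cons.1 hx with hx | hx
    · rw [Prod.mk.injEq] at hx
      rw [hx.1, hx.2]
      exact h.1
    · exact zipWith_all h.2 hx

theorem mem_CT (a : D1) : ∃ e ∈ CT, e.1 = nn a := by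
  have h := List.all_eq_true.1 chkB_true (nn a) (List.mem_range.2 (nn_lt a))
  have h6 : decide (rt chevE8 (nn a) 7 = 1) = true := decide_eq_true (rt_nn a)
  rw [h6, Bool.not_true, Bool.false_or, List.any_eq_true] at h
  obtain ⟨e, he, h1⟩ := h
  exact ⟨e, he, Nat.eq_of_beq_eq_true h1⟩

theorem coords {e : ℕ × List ℤ × List ℤ × ℕ × List ℕ} (he : e ∈ CT) :
    (List.range 8).map (fun i => rt chevE8 e.1 i) = e.2.1 ∧ (List.range 8).map (fun i => chevE8.cartan i e.1) = e.2.2.1 ∧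
    (st e.1).1 = e.2.2.2.1 := by
  have h := List.all_eq_true.1 chkA_true e he
  rw [Bool.and_eq_true, Bool.and_eq_true, beq_iff_eq, beq_iff_eq] at h
  exact ⟨h.1.1, h.1.2, Nat.eq_of_beq_eq_true h.2⟩

theorem p2_eq_vv {a b : D1} {e f : ℕ × List ℤ × List ℤ × ℕ × List ℕ} (he : e ∈ CT) (hf : f ∈ CT) (ha : e.1 = nn a)
    (hb : f.1 = nn b) : p2 a b = vv e f := by
  unfold vv dot
  rw [← (coords he).1, ← (coords hf).2.1, ha, hb]
  rfl

theorem op_mem {e : ℕ × List ℤ × List ℤ × ℕ × List ℕ} (he : e ∈ CT) {a : D1} (ha : e.1 = nn a) : e.2.2.2.1 = nn (op a) := by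
  rw [← (coords he).2.2, ha, st_eq]

theorem ent_nn (a : D1) : ent (nn a) ∈ CT ∧ (ent (nn a)).1 = nn a := by
  obtain ⟨e, he, h⟩ := mem_CT a
  rw [← h, ent_mem e he]
  exact ⟨he, rfl⟩

theorem pair (a b : D1) : ∃ r, (ent (nn b), r) ∈ List.zip CT (ent (nn a)).2.2.2.2 ∧
    chkP (ent (nn a)) (ent (nn (op a))) (ent (nn b)) r = true := by
  obtain ⟨ha, ha'⟩ := ent_nn a
  obtain ⟨hb, hb'⟩ := ent_nn b
  have h := chkR_all ha
  unfold chkR at h
  rw [Bool.and_eq_true, beq_iff_eq] at h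
  obtain ⟨y, hy⟩ := mem_zip_of (m := (ent (nn a)).2.2.2.2) (by rw [CT_len, h.2]) hb
  refine ⟨y, hy, ?_⟩
  have h1 := zipWith_all h.1 hy
  rwa [op_mem ha ha'] at h1

theorem p2_vv (a b : D1) : p2 a b = vv (ent (nn a)) (ent (nn b)) := p2_eq_vv (ent_nn a).1 (ent_nn b).1 (ent_nn a).2 (ent_nn b).2

/-- everything about a pair -/
theorem pair_spec (a b : D1) : (p2 a b = p2 b a) ∧ (p2 a b = 3 ↔ a = b) ∧ (p2 a b = -3 ↔ b = op a) ∧
    (p2 a b = 3 ∨ p2 a b = 1 ∨ p2 a b = -1 ∨ p2 a b = -3) ∧ (p2 (op a) b = - p2 a b) ∧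
    (p2 a b = 1 → ∃ r < 126, (mv r (nn b)).map (fun x => x.1) = some (nn a)) := by
  obtain ⟨r, -, h⟩ := pair a b
  unfold chkP at h
  rw [← p2_vv, ← p2_vv, ← p2_vv] at h
  simp only [Bool.and_eq_true, Bool.or_eq_true, beq_iff_eq, Bool.not_eq_true', beq_eq_false_iff_ne, Nat.blt_eq] at h
  obtain ⟨⟨⟨⟨⟨h1, h2⟩, h3⟩, h4⟩, h5⟩, h6⟩ := h
  rw [(ent_nn a).2, (ent_nn b).2] at h2 h6
  rw [(ent_nn b).2, op_mem (ent_nn a).1 (ent_nn a).2] at h3
  refine ⟨h1, ?_, ?_, ?_, h5, ?_⟩
  · by_cases hab : p2 a b = 3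
    · have e1 : (p2 a b == 3) = true := beq_iff_eq.2 hab
      rw [e1] at h2
      exact ⟨fun _ => nn_inj (Nat.eq_of_beq_eq_true h2.symm), fun _ => hab⟩
    · refine ⟨fun h => absurd h hab, fun h => ?_⟩
      have e1 : (p2 a b == 3) = false := beq_eq_false_iff_ne.2 hab
      rw [e1, h] at h2
      rw [Nat.beq_refl] at h2
      exact absurd h2 (by decide)
  · by_cases hab : p2 a b = -3
    · have e1 : (p2 a b == -3) = true := beq_iff_eq.2 hab
      rw [e1] at h3
      exact ⟨fun _ => (nn_inj (Nat.eq_of_beq_eq_true h3.symm)).symm, fun _ => hab⟩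
    · refine ⟨fun h => absurd h hab, fun h => ?_⟩
      have e1 : (p2 a b == -3) = false := beq_eq_false_iff_ne.2 hab
      rw [e1, h] at h3
      rw [Nat.beq_refl] at h3
      exact absurd h3 (by decide)
  · rcases h4 with ((h4 | h4) | h4) | h4
    · exact Or.inl h4
    · exact Or.inr (Or.inl h4)
    · exact Or.inr (Or.inr (Or.inl h4))
    · exact Or.inr (Or.inr (Or.inr h4))
  · intro hab
    rcases h6 with h6 | h6
    · exact absurd hab h6
    · exact ⟨r, h6.1, h6.2⟩

theorem row_mem {r : ℕ} {a b : D1} {c : ℤ} (h : mv r (nn b) = some (nn a, c)) : (nn b, nn a, c) ∈ T56.getD r [] := by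
  unfold mv at h
  have h2 := List.mem_of_mem_head? h
  unfold F56 at h2
  rw [List.mem_map] at h2
  obtain ⟨x, hx, hx'⟩ := h2
  rw [List.mem_filter] at hx
  have h4 : x.1 = nn b := Nat.eq_of_beq_eq_true hx.2
  have h5 : x = (nn b, nn a, c) := by rw [← h4, ← hx']
  rw [← h5]
  exact hx.1

theorem row_spec {r : ℕ} (hr : r < 126) {a b : D1} {c : ℤ} (h : mv r (nn b) = some (nn a, c)) :
    (ent (nn a)).2.1 = List.zipWith (fun x y => x + y) (ent (nn b)).2.1 ((List.range 8).map fun i => rt chevE8 (ι78 r) i) ∧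
    p2 a b = 1 ∧ ∀ y ∈ List.zip CT (ent (nn a)).2.2.2.2, y.1.1 = nn b → y.2 = r := by
  obtain ⟨B, hB⟩ := mem_zip_of (l := List.range 126) (m := RB) (x := r) (by rw [List.length_range, RB_len]) (List.mem_range.2 hr)
  have h1 := zipWith_all chkE_true hB
  have hD := chkD_true
  unfold chkD at hD
  rw [Bool.and_eq_true] at hD
  have h2 := zipWith_all hD.1 hB
  rw [beq_iff_eq] at h2
  unfold chkE at h1
  have h3 := List.all_eq_true.1 h1 _ (row_mem h)
  rw [Bool.and_eq_true, Bool.and_eq_true, beq_iff_eq, beq_iff_eq] at h3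
  refine ⟨by rw [h2]; exact h3.1.1, by rw [p2_vv]; exact h3.1.2, fun y hy hy' => ?_⟩
  have h4 := List.all_eq_true.1 h3.2 y hy
  have h5 : Nat.beq y.1.1 (nn b) = true := by rw [hy']; exact Nat.beq_refl _
  change (!(Nat.beq y.1.1 (nn b)) || Nat.beq y.2 r) = true at h4
  rw [h5, Bool.not_true, Bool.false_or] at h4
  exact Nat.eq_of_beq_eq_true h4

end Comb

section
variable {a b m : D1}

theorem p2_comm (a b : D1) : p2 a b = p2 b a := (Comb.pair_spec a b).1
theorem p2_eq_three : p2 a b = 3 ↔ a = b := (Comb.pair_spec a b).2.1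
theorem p2_self (a : D1) : p2 a a = 3 := p2_eq_three.2 rfl
theorem p2_eq_neg_three : p2 a b = -3 ↔ b = op a := (Comb.pair_spec a b).2.2.1
theorem p2_cases (a b : D1) : p2 a b = 3 ∨ p2 a b = 1 ∨ p2 a b = -1 ∨ p2 a b = -3 := (Comb.pair_spec a b).2.2.2.1
theorem p2_op (a b : D1) : p2 (op a) b = - p2 a b := (Comb.pair_spec a b).2.2.2.2.1
theorem p2_op' (a b : D1) : p2 a (op b) = - p2 a b := by rw [p2_comm, p2_op, p2_comm]

/-- weights with `p2 = 1` differ by a root -/
theorem exists_mv (h : p2 a b = 1) : ∃ r < 126, ∃ c : ℤ, mv r (nn b) = some (nn a, c) ∧ c * c = 1 := by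
  obtain ⟨r, hr, h1⟩ := (Comb.pair_spec a b).2.2.2.2.2 h
  rw [Option.map_eq_some_iff] at h1
  obtain ⟨⟨u, c⟩, h2, h3⟩ := h1
  have h4 : u = nn a := h3
  rw [h4] at h2
  refine ⟨r, hr, c, h2, ?_⟩
  rcases mv_spec hr b with h5 | ⟨a', c', h5, h6, -⟩
  · rw [h5] at h2; exact absurd h2 (by simp)
  · rw [h5, Option.some.injEq, Prod.mk.injEq] at h2
    rw [← h2.2]; exact h6

theorem p2_of_mv {r : ℕ} (hr : r < 126) {c : ℤ} (h : mv r (nn b) = some (nn a, c)) : p2 a b = 1 := (Comb.row_spec hr h).2.1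

theorem mv_unique {r r' : ℕ} (hr : r < 126) (hr' : r' < 126) {c c' : ℤ} (h : mv r (nn b) = some (nn a, c))
    (h' : mv r' (nn b) = some (nn a, c')) : r = r' := by
  obtain ⟨s, hs, -⟩ := Comb.pair a b
  rw [← (Comb.row_spec hr h).2.2 _ hs (Comb.ent_nn b).2, ← (Comb.row_spec hr' h').2.2 _ hs (Comb.ent_nn b).2]

/-- additivity -/
theorem p2_add {r : ℕ} (hr : r < 126) {c : ℤ} (h : mv r (nn b) = some (nn a, c)) (m : D1) : p2 a m = p2 b m + 2 * Comb.pr r m := by
  have h1 := (Comb.row_spec hr h).1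
  have ca := (Comb.coords (Comb.ent_nn a).1).1
  have cb := (Comb.coords (Comb.ent_nn b).1).1
  rw [(Comb.ent_nn a).2] at ca
  rw [(Comb.ent_nn b).2] at cb
  rw [← ca, ← cb] at h1
  have h2 : ∀ i ∈ List.range 8, rt chevE8 (nn a) i = rt chevE8 (nn b) i + rt chevE8 (ι78 r) i := by
    have e : List.zipWith (fun x y => x + y) ((List.range 8).map fun i => rt chevE8 (nn b) i)
        ((List.range 8).map fun i => rt chevE8 (ι78 r) i) =
        (List.range 8).map fun i => rt chevE8 (nn b) i + rt chevE8 (ι78 r) i := rfl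
    rw [e] at h1
    exact List.map_inj_left.1 h1
  unfold p2 Comb.pr
  rw [List.map_congr_left (g := fun i => rt chevE8 (nn b) i * chevE8.cartan i (nn m) + rt chevE8 (ι78 r) i * chevE8.cartan i (nn m))
    (fun i hi => by rw [h2 i hi, add_mul]), List.sum_map_add]
  ring

end

end Cfsg.Agent.R2.PX
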