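import Mathlib
import Cfsg.Agent.R2.T1.Inf.Form

/-!
# Pattern X (S5771), PX2: clearing coordinates (helper5)
-/

set_option autoImplicit false
set_option maxRecDepth 100000

namespace Cfsg.Agent.R2.PX

open Cfsg Cfsg.Lie Module
open Cfsg.Agent.R2.T1
open Cfsg.Agent.ChevalleyStructure.RootVec
open Cfsg.Agent.H943.E7V.Block

universe u

namespace Tr
variable {F : Type u} [Field F]

/-- some translate has a non-zero coordinate at a given weight -/
theorem exists_coord {x : D1 → F} (hx : x ≠ 0) (m : D1) : ∃ g : Gh F, V F g x m ≠ 0 := by
  by_contra hcon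
  push Not at hcon
  let W : Submodule F (D1 → F) :=
    { carrier := {w | ∀ g : Gh F, V F g w m = 0}
      add_mem' := by
        intro a b ha hb g
        rw [map_add, Pi.add_apply, ha g, hb g, add_zero]
      zero_mem' := by
        intro g
        rw [map_zero, Pi.zero_apply]
      smul_mem' := by
        intro c a ha g
        rw [map_smul, Pi.smul_apply, ha g, smul_zero] }
  have h1 : W = ⊤ := by
    refine irred (W := W) (fun g w hw h => ?_) ?_
    · have h2 := hw (h * g)
      rwa [map_mul, Module.End.mul_apply] at h2
    · intro h0
      have h2 : x ∈ W := hcon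
      rw [h0, Submodule.mem_bot] at h2
      exact hx h2
  have h2 : bs F m ∈ W := by rw [h1]; exact Submodule.mem_top
  have h3 := h2 1
  rw [map_one, Module.End.one_apply, bs, Pi.single_eq_same] at h3
  exact one_ne_zero h3

end Tr

end Cfsg.Agent.R2.PX
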