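import Mathlib
import Cfsg.Agent.R2.PX.Comb2
import Cfsg.Agent.R2.PX.Tr0

/-!
# Pattern X (S5771), PX2: clearing coordinates, pure vectors (helper5)
-/

set_option autoImplicit false
set_option maxRecDepth 100000

namespace Cfsg.Agent.R2.PX

open Cfsg Cfsg.Lie Module Matrix
open Cfsg.Agent.H943.E7V.Block (D1)
open Cfsg.Agent.R2.T1

universe u

namespace Tr
variable {F : Type u} [Field F]

theorem V_coord {r : ℕ} (hr : r < 126) {a b : D1} {c : ℤ} (h : mv r (nn b) = some (nn a, c)) (t : F) (x : D1 → F) :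
    V F (xs F r t) x a = x a + t * ((c : F) * x b) := by
  rw [V_xs hr, Pi.add_apply, Pi.smul_apply, smul_eq_mul]
  have := NM_mulVec (F := F) hr h x
  rw [this]

theorem V_coord_ne {r : ℕ} (hr : r < 126) {a : D1} {x : D1 → F} (h : ∀ b c, mv r (nn b) = some (nn a, c) → x b = 0) (t : F) :
    V F (xs F r t) x a = x a := by
  rw [V_xs hr, Pi.add_apply, Pi.smul_apply, smul_eq_mul]
  have : (NM F r *ᵥ x) a = 0 := by
    by_contra hne
    obtain ⟨b, c, h1, h2⟩ := NM_mulVec_ne hne
    exact h2 (h b c h1)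
  rw [this, mul_zero, add_zero]

/-- the grading: if `r` leads from `m` to a weight with `p2 = 1`, then `r` lowers `p2 _ m` by 2 -/
theorem grade {r : ℕ} (hr : r < 126) {m n : D1} {c : ℤ} (h : mv r (nn m) = some (nn n, c)) {a b : D1} {d : ℤ}
    (h' : mv r (nn b) = some (nn a, d)) : p2 b m = p2 a m + 2 := by
  have h1 := p2_add hr h m
  rw [p2_of_mv hr h, p2_self] at h1
  rw [p2_add hr h' m]
  omega

theorem clear_step {m n : D1} {r : ℕ} (hr : r < 126) {c : ℤ} (h : mv r (nn m) = some (nn n, c)) (hc : c * c = 1) {x : D1 → F}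
    (hx : x m ≠ 0) : ∃ t : F, V F (xs F r t) x m = x m ∧ V F (xs F r t) x n = 0 ∧
      ∀ a, a ≠ n → p2 a m = 1 → V F (xs F r t) x a = x a := by
  have hc' : ((c : ℤ) : F) ≠ 0 := cast_ne hc
  refine ⟨-(x n) / ((c : F) * x m), ?_, ?_, ?_⟩
  · refine V_coord_ne hr (fun b d hb => ?_) _
    have h1 := grade hr h hb
    rw [p2_self] at h1
    rcases p2_cases b m with h2 | h2 | h2 | h2 <;> omega
  · rw [V_coord hr h]
    field_simp
    ring
  · intro a ha h1
    refine V_coord_ne hr (fun b d hb => ?_) _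
    have h2 := grade hr h hb
    rw [h1] at h2
    have h3 : b = m := p2_eq_three.1 (by omega)
    rw [h3, h, Option.some.injEq, Prod.mk.injEq] at hb
    exact absurd (nn_inj hb.1).symm ha

/-- clearing of coordinates -/
theorem clear (P : Subgroup (Gh F)) (m : D1) {x : D1 → F} (hx : x m ≠ 0) (S : Finset D1) :
    (∀ n ∈ S, p2 n m = 1 ∧ ∀ r < 126, ∀ c, mv r (nn m) = some (nn n, c) → ∀ t, xs F r t ∈ P) →
    ∃ g ∈ P, V F g x m = x m ∧ (∀ n ∈ S, V F g x n = 0) ∧ ∀ n ∉ S, p2 n m = 1 → V F g x n = x n := by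
  induction S using Finset.induction_on with
  | empty =>
    intro _
    exact ⟨1, P.one_mem, by rw [map_one]; rfl, fun n hn => absurd hn (Finset.notMem_empty n), fun n _ _ => by rw [map_one]; rfl⟩
  | insert n S hn ih =>
    intro hS
    obtain ⟨g, hg, g1, g2, g3⟩ := ih fun n' hn' => hS n' (Finset.mem_insert_of_mem hn')
    obtain ⟨hn1, hn2⟩ := hS n (Finset.mem_insert_self n S)
    obtain ⟨r, hr, c, h, hc⟩ := exists_mv hn1
    obtain ⟨t, t1, t2, t3⟩ := clear_step hr h hc (x := V F g x) (by rw [g1]; exact hx)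
    refine ⟨xs F r t * g, P.mul_mem (hn2 r hr c h t) hg, ?_, ?_, ?_⟩
    · rw [map_mul, Module.End.mul_apply, t1, g1]
    · intro n' hn'
      rw [map_mul, Module.End.mul_apply]
      rcases Finset.mem_insert.1 hn' with h1 | h1
      · rw [h1]; exact t2
      · rw [t3 n' (fun h2 => hn (h2 ▸ h1)) (hS n' hn').1]
        exact g2 n' h1
    · intro n' hn' h1
      rw [map_mul, Module.End.mul_apply, t3 n' (fun h2 => hn' (h2 ▸ Finset.mem_insert_self _ _)) h1]
      exact g3 n' (fun h2 => hn' (Finset.mem_insert_of_mem h2)) h1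

/-- off-diagonal entries of `DD` -/
theorem DD_entry {r : ℕ} (hr : r < 126) {a b : D1} {c : ℤ} (h : mv r (nn b) = some (nn a, c)) (x y : D1 → F) :
    DD F x y a b = -2 * (sf F (NM F (125 - r) *ᵥ x) y * (c : F)) := by
  have hab : a ≠ b := by
    rintro rfl
    have := p2_of_mv hr h
    rw [p2_self] at this
    omega
  unfold DD
  rw [Matrix.sub_apply, Matrix.smul_apply, Matrix.sum_apply, Matrix.diagonal_apply_ne _ hab, sub_zero, smul_eq_mul,
    Finset.sum_eq_single r]
  · rw [Matrix.smul_apply, smul_eq_mul]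
    show -2 * (_ * ((nz r a b : ℤ) : F)) = _
    rw [nz_some h, if_pos rfl]
  · intro r' hr' hne
    rw [Matrix.smul_apply, smul_eq_mul]
    show _ * ((nz r' a b : ℤ) : F) = 0
    by_cases h0 : nz r' a b = 0
    · rw [h0, Int.cast_zero, mul_zero]
    · obtain ⟨c', h1, -⟩ := nz_ne h0
      exact absurd (mv_unique (Finset.mem_range.1 hr') hr h1 h) hne
  · intro h1
    exact absurd (Finset.mem_range.2 hr) h1

/-- diagonal entries of `DD` -/
theorem DD_diag (x y : D1 → F) (m : D1) : DD F x y m m = -∑ a : D1, x a * ((ep a : ℤ) : F) * y (op a) * ((p2 a m : ℤ) : F) := by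
  unfold DD
  rw [Matrix.sub_apply, Matrix.smul_apply, Matrix.sum_apply, Matrix.diagonal_apply_eq, Finset.sum_eq_zero, smul_zero, zero_sub]
  intro r hr
  rw [Matrix.smul_apply, smul_eq_mul]
  show _ * ((nz r m m : ℤ) : F) = 0
  by_cases h0 : nz r m m = 0
  · rw [h0, Int.cast_zero, mul_zero]
  · obtain ⟨c', h1, -⟩ := nz_ne h0
    have := p2_of_mv (Finset.mem_range.1 hr) h1
    rw [p2_self] at this
    omega

/-- a pure vector with a non-zero coordinate at `m` and zero coordinates at the neighbours is a multiple of the weight vector -/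
theorem pure_eq (h2 : (2 : F) ≠ 0) (h3 : (3 : F) ≠ 0) {m : D1} {x : D1 → F} (hp : Pure F x) (hm : x m ≠ 0)
    (h0 : ∀ n, p2 n m = 1 → x n = 0) : x = x m • bs F m := by
  have key1 : ∀ b, p2 b m = -1 → x b = 0 := by
    intro b hb
    have h1 : p2 m (op b) = 1 := by rw [p2_op', p2_comm, hb]; rfl
    obtain ⟨r, hr, c, h, hc⟩ := exists_mv h1
    have hr' : 125 - r < 126 := by omega
    have hinv : mv (125 - r) (nn m) = some (nn (op b), c) := by
      rcases mv_spec hr (op b) with h4 | ⟨a', c', h4, -, -, h5⟩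
      · rw [h4] at h; exact absurd h (by simp)
      · rw [h4, Option.some.injEq, Prod.mk.injEq] at h
        rw [← nn_inj h.1, ← h.2]
        exact h5
    have e1 := DD_entry (F := F) hr h x x
    have hpp : DD F x x = 0 := hp
    rw [hpp, Matrix.zero_apply] at e1
    have e2 : sf F (NM F (125 - r) *ᵥ x) x = 0 := by
      have h4 : (-2 : F) ≠ 0 := neg_ne_zero.2 h2
      exact (mul_eq_zero.1 ((mul_eq_zero.1 e1.symm).resolve_left h4)).resolve_right (cast_ne hc)
    have hop := mv_op hr' hinv
    rw [op_op, ep_op] at hop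
    have hbm : b ≠ m := by
      rintro rfl
      rw [p2_self] at hb
      omega
    rw [sf_sum, Fintype.sum_eq_add (op b) (op m)] at e2
    · rw [NM_mulVec hr' hinv, NM_mulVec hr' hop, op_op, op_op, ep_op, ep_op] at e2
      push_cast at e2
      have h5 : (ep m : F) * (ep m : F) = 1 := by
        rw [← Int.cast_mul, ep_sq, Int.cast_one]
      have h6 : (2 * (c : F) * (ep b : F) * x m) * x b = 0 := by
        linear_combination -e2 - (c : F) * (ep b : F) * x b * x m * h5
      exact (mul_eq_zero.1 h6).resolve_left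
        (mul_ne_zero (mul_ne_zero (mul_ne_zero h2 (cast_ne hc)) (cast_ne (ep_sq b))) hm)
    · intro h4
      have h5 := congrArg op h4
      rw [op_op, op_op] at h5
      exact hbm h5
    · intro a ha
      by_contra hne
      have ha1 : (NM F (125 - r) *ᵥ x) a ≠ 0 := left_ne_zero_of_mul hne
      obtain ⟨b', c', h4, h5⟩ := NM_mulVec_ne ha1
      have h6 := grade hr' hinv h4
      rcases p2_cases b' m with h7 | h7 | h7 | h7
      · have h8 := p2_eq_three.1 h7
        rw [h8, hinv, Option.some.injEq, Prod.mk.injEq] at h4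
        exact ha.1 (nn_inj h4.1).symm
      · exact h5 (h0 b' h7)
      · have h8 : p2 m a = -3 := by rw [p2_comm]; omega
        exact ha.2 (p2_eq_neg_three.1 h8)
      · rcases p2_cases a m with h8 | h8 | h8 | h8 <;> omega
  have key2 : x (op m) = 0 := by
    have e1 := DD_diag (F := F) x x m
    have hpp : DD F x x = 0 := hp
    rw [hpp, Matrix.zero_apply, Fintype.sum_eq_add m (op m) (ne_op m)] at e1
    · rw [op_op, ep_op, p2_op, p2_self] at e1
      push_cast at e1
      have h6 : (2 * 3 * (ep m : F) * x m) * x (op m) = 0 := by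
        linear_combination e1
      exact (mul_eq_zero.1 h6).resolve_left
        (mul_ne_zero (mul_ne_zero (mul_ne_zero h2 h3) (cast_ne (ep_sq m))) hm)
    · intro a ha
      by_contra hne
      have ha1 : x a ≠ 0 := left_ne_zero_of_mul (left_ne_zero_of_mul (left_ne_zero_of_mul hne))
      rcases p2_cases a m with h8 | h8 | h8 | h8
      · exact ha.1 (p2_eq_three.1 h8)
      · exact ha1 (h0 a h8)
      · exact ha1 (key1 a h8)
      · rw [p2_comm] at h8
        exact ha.2 (p2_eq_neg_three.1 h8)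
  funext a
  rw [Pi.smul_apply, smul_eq_mul, bs]
  by_cases ha : a = m
  · rw [ha, Pi.single_eq_same, mul_one]
  · rw [Pi.single_eq_of_ne ha, mul_zero]
    rcases p2_cases a m with h8 | h8 | h8 | h8
    · exact absurd (p2_eq_three.1 h8) ha
    · exact h0 a h8
    · exact key1 a h8
    · rw [p2_comm] at h8
      rw [p2_eq_neg_three.1 h8]
      exact key2

end Tr

end Cfsg.Agent.R2.PX
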