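import Mathlib
import Cfsg.Agent.R2.PX.Tr1

/-!
# Pattern X (S5771), PX2: pure vectors and pure pairs are conjugate to weight vectors (helper5)
-/

set_option autoImplicit false
set_option maxRecDepth 100000

namespace Cfsg.Agent.R2.PX

open Cfsg Cfsg.Lie Module Matrix
open Cfsg.Agent.ChevalleyStructure.RootVec
open Cfsg.Agent.H943.E7V.Block (D1 rho)
open Cfsg.Agent.R2.T1

universe u

/-- equivariance of `DD` -/
def Equi (F : Type u) [Field F] : Prop := ∀ (g : Gh F) (x y : D1 → F), DD F (V F g x) (V F g y) * rho F g = rho F g * DD F x y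

/-- the second weight of a symplectic pair -/
def w1 : D1 := ⟨⟨227, by decide +kernel⟩, by decide +kernel⟩

/-- the second weight of an orthogonal pair -/
def w2 : D1 := ⟨⟨237, by decide +kernel⟩, by decide +kernel⟩

namespace Tr

/-- intermediate weights -/
def chkW (w : ℕ) (v : ℤ) : Bool := Comb.CT.all fun b => !(Comb.vv b (Comb.ent 238) == v) || (Comb.vv (Comb.ent w) b == 3) ||
  (Comb.vv (Comb.ent w) b == 1) || Comb.CT.any fun c => (Comb.vv c (Comb.ent 238) == v) && (Comb.vv c b == 1) && (Comb.vv (Comb.ent w) c == 1)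

theorem chkW1 : chkW 227 (-1) = true := by decide +kernel
theorem chkW2 : chkW 237 1 = true := by decide +kernel

theorem p2_w1 : p2 w1 topv = -1 := by
  rw [Comb.p2_vv]
  show Comb.vv (Comb.ent 227) (Comb.ent 238) = -1
  decide +kernel

theorem p2_w2 : p2 w2 topv = 1 := by
  rw [Comb.p2_vv]
  show Comb.vv (Comb.ent 237) (Comb.ent 238) = 1
  decide +kernel

theorem inter_of {w : D1} {v : ℤ} (h : chkW (nn w) v = true) {b : D1} (hb : p2 b topv = v) : w = b ∨ p2 w b = 1 ∨
    ∃ c : D1, p2 c topv = v ∧ p2 c b = 1 ∧ p2 w c = 1 := by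
  have h1 := List.all_eq_true.1 h _ (Comb.ent_nn b).1
  have e1 : Comb.ent 238 = Comb.ent (nn topv) := rfl
  rw [e1, ← Comb.p2_vv, ← Comb.p2_vv, hb] at h1
  simp only [Bool.or_eq_true, beq_iff_eq, Bool.not_eq_true', beq_eq_false_iff_ne, ne_eq, not_true_eq_false, false_or] at h1
  rcases h1 with (h1 | h1) | h1
  · exact Or.inl (p2_eq_three.1 h1)
  · exact Or.inr (Or.inl h1)
  · rw [List.any_eq_true] at h1
    obtain ⟨c, hc, h2⟩ := h1
    right; right
    have hs : rt chevE8 c.1 7 = 1 ∧ c.1 < 240 := by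
      have : ∀ e ∈ Comb.CT, rt chevE8 e.1 7 = 1 ∧ e.1 < 240 := by decide +kernel
      exact this c hc
    refine ⟨⟨⟨c.1, hs.2⟩, hs.1⟩, ?_⟩
    have e2 : Comb.ent (nn (⟨⟨c.1, hs.2⟩, hs.1⟩ : D1)) = c := Comb.ent_mem c hc
    rw [Comb.p2_vv, Comb.p2_vv, Comb.p2_vv, e2]
    simp only [Bool.and_eq_true, beq_iff_eq] at h2
    exact ⟨h2.1.1, h2.1.2, h2.2⟩

variable {F : Type u} [Field F]

theorem NM_bs {r : ℕ} {a b : D1} {c : ℤ} (h : mv r (nn b) = some (nn a, c)) : NM F r *ᵥ bs F b = (c : F) • bs F a := by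
  funext x
  rw [bs, Matrix.mulVec_single_one, Matrix.col_apply]
  show ((nz r x b : ℤ) : F) = _
  rw [nz_some h, Pi.smul_apply, bs]
  by_cases hx : x = a
  · rw [if_pos hx, hx, Pi.single_eq_same, smul_eq_mul, mul_one]
  · rw [if_neg hx, Pi.single_eq_of_ne hx, smul_zero, Int.cast_zero]

theorem NM_bs0 {r : ℕ} {b : D1} (h : mv r (nn b) = none) : NM F r *ᵥ bs F b = 0 := by
  funext x
  rw [bs, Matrix.mulVec_single_one, Matrix.col_apply]
  show ((nz r x b : ℤ) : F) = _
  rw [nz_none h, Int.cast_zero]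
  rfl

theorem bs_same (a : D1) : bs F a a = 1 := by rw [bs, Pi.single_eq_same]
theorem bs_ne {a b : D1} (h : b ≠ a) : bs F a b = 0 := by rw [bs, Pi.single_eq_of_ne h]

/-- the stabiliser of the highest weight vector -/
def P (F : Type u) [Field F] : Subgroup (Gh F) where
  carrier := {g | V F g (bs F topv) = bs F topv}
  one_mem' := by
    show V F 1 (bs F topv) = _
    rw [map_one]
    rfl
  mul_mem' := by
    intro a b ha hb
    change V F a (bs F topv) = _ at ha
    change V F b (bs F topv) = _ at hb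
    show V F (a * b) (bs F topv) = _
    rw [map_mul, Module.End.mul_apply, hb, ha]
  inv_mem' := by
    intro a ha
    change V F a (bs F topv) = _ at ha
    show V F a⁻¹ (bs F topv) = _
    have h1 : V F a⁻¹ (V F a (bs F topv)) = bs F topv := by
      rw [← Module.End.mul_apply, ← map_mul, inv_mul_cancel, map_one]
      rfl
    rwa [ha] at h1

theorem mem_P {g : Gh F} : g ∈ P F ↔ V F g (bs F topv) = bs F topv := Iff.rfl

theorem xs_mem {r : ℕ} (hr : r < 126) (h : Comb.pr r topv ≠ -1) (t : F) : xs F r t ∈ P F := by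
  rw [mem_P, V_xs hr]
  have h1 : mv r (nn topv) = none := by
    rcases mv_spec hr topv with h1 | ⟨a, c, h1, -⟩
    · exact h1
    · exfalso
      apply h
      have h2 := p2_add hr h1 topv
      rw [p2_of_mv hr h1, p2_self] at h2
      omega
  have h2 := NM_bs0 (F := F) h1
  rw [h2, smul_zero, add_zero]

/-- moving a non-zero coordinate -/
theorem move {w : D1} {v : ℤ} (hw : p2 w topv = v) (h : chkW (nn w) v = true) {y : D1 → F} {b : D1} (hb : p2 b topv = v)
    (hy : y b ≠ 0) : ∃ g ∈ P F, V F g y w ≠ 0 := by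
  have step : ∀ {a b : D1} {y : D1 → F}, p2 b topv = v → p2 a topv = v → p2 a b = 1 → y b ≠ 0 → ∃ g ∈ P F, V F g y a ≠ 0 := by
    intro a b y hb ha hab hy
    by_cases h0 : y a = 0
    · obtain ⟨r, hr, c, h1, hc⟩ := exists_mv hab
      refine ⟨xs F r 1, xs_mem hr ?_ 1, ?_⟩
      · intro h2
        have h3 := p2_add hr h1 topv
        rw [ha, hb] at h3
        omega
      · rw [V_coord hr h1, h0, zero_add, one_mul]
        exact mul_ne_zero (cast_ne hc) hy
    · exact ⟨1, (P F).one_mem, by rw [map_one]; exact h0⟩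
  rcases inter_of h hb with h1 | h1 | ⟨c, hc1, hc2, hc3⟩
  · exact ⟨1, (P F).one_mem, by rw [map_one, h1]; exact hy⟩
  · exact step hb hw h1 hy
  · obtain ⟨g, hg, h2⟩ := step hb hc1 hc2 hy
    obtain ⟨g', hg', h3⟩ := step hc1 hw hc3 h2
    refine ⟨g' * g, (P F).mul_mem hg' hg, ?_⟩
    rw [map_mul, Module.End.mul_apply]
    exact h3

theorem DD_smul (c d : F) (x y : D1 → F) : DD F (c • x) (d • y) = (c * d) • DD F x y := by
  have h1 : (∑ r ∈ Finset.range 126, sf F (NM F (125 - r) *ᵥ (c • x)) (d • y) • NM F r) =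
      (c * d) • ∑ r ∈ Finset.range 126, sf F (NM F (125 - r) *ᵥ x) y • NM F r := by
    rw [Finset.smul_sum]
    refine Finset.sum_congr rfl fun r _ => ?_
    rw [Matrix.mulVec_smul, map_smul, map_smul, LinearMap.smul_apply, smul_eq_mul, smul_eq_mul, smul_smul]
    congr 1
    ring
  have h2 : (Matrix.diagonal fun e => ∑ a : D1, (c • x) a * ((ep a : ℤ) : F) * (d • y) (op a) * ((p2 a e : ℤ) : F)) =
      (c * d) • Matrix.diagonal fun e => ∑ a : D1, x a * ((ep a : ℤ) : F) * y (op a) * ((p2 a e : ℤ) : F) := by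
    ext a b
    rw [Matrix.smul_apply, Matrix.diagonal_apply, Matrix.diagonal_apply]
    by_cases hab : a = b
    · rw [if_pos hab, if_pos hab, smul_eq_mul, Finset.mul_sum]
      refine Finset.sum_congr rfl fun e _ => ?_
      simp only [Pi.smul_apply, smul_eq_mul]
      ring
    · rw [if_neg hab, if_neg hab, smul_zero]
  unfold DD
  rw [h1, h2, smul_sub, smul_comm (c * d) (-2 : F)]

section
variable (E : Equi F)
include E

theorem pure_V {x : D1 → F} (hp : Pure F x) (g : Gh F) : Pure F (V F g x) := by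
  have h1 := E g x x
  have hp' : DD F x x = 0 := hp
  rw [hp', mul_zero] at h1
  have h2 : rho F g * rho F g⁻¹ = 1 := by rw [← map_mul, mul_inv_cancel, map_one]
  show DD F (V F g x) (V F g x) = 0
  calc DD F (V F g x) (V F g x) = DD F (V F g x) (V F g x) * rho F g * rho F g⁻¹ := by rw [mul_assoc, h2, mul_one]
    _ = 0 := by rw [h1, zero_mul]

theorem DD_V {x y : D1 → F} (g : Gh F) : DD F (V F g x) (V F g y) = 0 ↔ DD F x y = 0 := by
  have h1 := E g x y
  have h2 : rho F g * rho F g⁻¹ = 1 := by rw [← map_mul, mul_inv_cancel, map_one]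
  have h3 : rho F g⁻¹ * rho F g = 1 := by rw [← map_mul, inv_mul_cancel, map_one]
  constructor
  · intro h
    rw [h, zero_mul] at h1
    calc DD F x y = rho F g⁻¹ * (rho F g * DD F x y) := by rw [← mul_assoc, h3, one_mul]
      _ = 0 := by rw [← h1, mul_zero]
  · intro h
    rw [h, mul_zero] at h1
    calc DD F (V F g x) (V F g y) = DD F (V F g x) (V F g y) * rho F g * rho F g⁻¹ := by rw [mul_assoc, h2, mul_one]
      _ = 0 := by rw [h1, zero_mul]

/-- **(T1)** a non-zero pure vector is conjugate to a multiple of the highest weight vector -/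
theorem pure_top (h2 : (2 : F) ≠ 0) (h3 : (3 : F) ≠ 0) {x : D1 → F} (hp : Pure F x) (hx : x ≠ 0) :
    ∃ (g : Gh F) (c : F), c ≠ 0 ∧ V F g x = c • bs F topv := by
  classical
  obtain ⟨g, hg⟩ := exists_coord hx topv
  obtain ⟨g', -, h4, h5, -⟩ := clear ⊤ topv hg (Finset.univ.filter fun n => p2 n topv = 1)
    (fun n hn => ⟨(Finset.mem_filter.1 hn).2, fun _ _ _ _ _ => Subgroup.mem_top _⟩)
  refine ⟨g' * g, V F (g' * g) x topv, ?_, ?_⟩
  · rw [map_mul, Module.End.mul_apply, h4]
    exact hg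
  · refine pure_eq h2 h3 (pure_V E hp _) ?_ fun n hn => ?_
    · rw [map_mul, Module.End.mul_apply, h4]
      exact hg
    · rw [map_mul, Module.End.mul_apply]
      exact h5 n (Finset.mem_filter.2 ⟨Finset.mem_univ _, hn⟩)

end

end Tr

end Cfsg.Agent.R2.PX
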