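import Mathlib
import Cfsg.Agent.R2.PX.Tr2

/-!
# Pattern X (S5771), PX2: pairs of pure vectors, similitudes normalise the group (helper5)

`Equi F` is the equivariance of `DD`.
* `pure_top` (T1), `pair_symp` (T2), `pair_orth` (T2'), `sim_norm` (COR).
-/

set_option autoImplicit false
set_option maxRecDepth 100000

namespace Cfsg.Agent.R2.PX

open Cfsg Cfsg.Lie Module Matrix
open Cfsg.Agent.H943.E7V.Block (D1 rho)
open Cfsg.Agent.R2.T1

universe u

namespace Tr

variable {F : Type u} [Field F]

theorem sf_top (y : D1 → F) : sf F (bs F topv) y = ((ep topv : ℤ) : F) * y (op topv) := sf_single topv y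

/-- if the relevant coordinates vanish then `DD` vanishes -/
theorem DD_top_zero {y : D1 → F} (h1 : ∀ b, p2 b topv = -1 → y b = 0) (h3 : y (op topv) = 0) : DD F (bs F topv) y = 0 := by
  unfold DD
  rw [Finset.sum_eq_zero, smul_zero, zero_sub, neg_eq_zero]
  · ext a b
    rw [Matrix.diagonal_apply, Matrix.zero_apply]
    by_cases hab : a = b
    · rw [if_pos hab]
      refine Finset.sum_eq_zero fun e _ => ?_
      by_cases he : e = topv
      · rw [he, h3]
        ring
      · rw [bs_ne he]
        ring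
    · rw [if_neg hab]
  · intro r hr
    have hr0 := Finset.mem_range.1 hr
    have hr' : 125 - r < 126 := by omega
    rcases mv_spec hr' topv with h | ⟨a, c, h, -⟩
    · have h2 := NM_bs0 (F := F) h
      rw [h2, map_zero, LinearMap.zero_apply, zero_smul]
    · have h2 := NM_bs (F := F) h
      have h4 : p2 (op a) topv = -1 := by rw [p2_op, p2_of_mv hr' h]
      rw [h2, map_smul, LinearMap.smul_apply, sf_single, h1 _ h4, mul_zero, smul_zero, zero_smul]

/-- conversely -/
theorem top_zero (h2 : (2 : F) ≠ 0) (h3 : (3 : F) ≠ 0) {y : D1 → F} (h : DD F (bs F topv) y = 0) :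
    (∀ b, p2 b topv = -1 → y b = 0) ∧ y (op topv) = 0 := by
  constructor
  · intro b hb
    have h1 : p2 topv (op b) = 1 := by rw [p2_op', p2_comm, hb]; rfl
    obtain ⟨r, hr, c, h4, hc⟩ := exists_mv h1
    have hr' : 125 - r < 126 := by omega
    have hinv : mv (125 - r) (nn topv) = some (nn (op b), c) := by
      rcases mv_spec hr (op b) with h5 | ⟨a', c', h5, -, -, h6⟩
      · rw [h5] at h4; exact absurd h4 (by simp)
      · rw [h5, Option.some.injEq, Prod.mk.injEq] at h4
        rw [← nn_inj h4.1, ← h4.2]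
        exact h6
    have e1 := DD_entry (F := F) hr h4 (bs F topv) y
    have e2 := NM_bs (F := F) hinv
    rw [h, Matrix.zero_apply, e2, map_smul, LinearMap.smul_apply, sf_single, op_op, smul_eq_mul] at e1
    have e3 : (-2 * ((c : F) * ((ep (op b) : ℤ) : F)) * (c : F)) * y b = 0 := by linear_combination -e1
    exact (mul_eq_zero.1 e3).resolve_left (mul_ne_zero (mul_ne_zero (neg_ne_zero.2 h2) (mul_ne_zero (cast_ne hc)
      (cast_ne (ep_sq _)))) (cast_ne hc))
  · have e1 := DD_diag (F := F) (bs F topv) y topv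
    rw [h, Matrix.zero_apply, Finset.sum_eq_single topv] at e1
    · rw [bs_same, p2_self] at e1
      push_cast at e1
      have e3 : (3 * ((ep topv : ℤ) : F)) * y (op topv) = 0 := by linear_combination e1
      exact (mul_eq_zero.1 e3).resolve_left (mul_ne_zero h3 (cast_ne (ep_sq _)))
    · intro a _ ha
      rw [bs_ne ha]
      ring
    · intro h4
      exact absurd (Finset.mem_univ _) h4

theorem nn_w1 : nn w1 = 227 := rfl
theorem nn_w2 : nn w2 = 237 := rfl

section
variable (E : Equi F)
include E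

theorem sym_zero {g : Gh F} (hg : g ∈ P F) {y : D1 → F} (h : y (op topv) = 0) : V F g y (op topv) = 0 := by
  have h1 := sf_V g (bs F topv) y
  rw [mem_P.1 hg, sf_top, sf_top, h, mul_zero] at h1
  exact (mul_eq_zero.1 h1).resolve_left (cast_ne (ep_sq _))

/-- **(T2)** -/
theorem pair_symp (h2 : (2 : F) ≠ 0) (h3 : (3 : F) ≠ 0) {x y : D1 → F} (hx : Pure F x) (hy : Pure F y) (hxy : sf F x y = 0)
    (hD : DD F x y ≠ 0) : ∃ (g : Gh F) (c d : F), c ≠ 0 ∧ d ≠ 0 ∧ V F g x = c • bs F topv ∧ V F g y = d • bs F w1 := by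
  classical
  have hx0 : x ≠ 0 := by
    rintro rfl
    apply hD
    have := DD_smul (0 : F) 1 0 y
    rwa [zero_smul, one_smul, zero_mul, zero_smul] at this
  obtain ⟨g1, c, hc, e1⟩ := pure_top E h2 h3 hx hx0
  have e2 : V F g1 y (op topv) = 0 := by
    have h4 := sf_V g1 x y
    rw [e1, hxy, map_smul, LinearMap.smul_apply, sf_top, smul_eq_mul] at h4
    exact (mul_eq_zero.1 ((mul_eq_zero.1 h4).resolve_left hc)).resolve_left (cast_ne (ep_sq _))
  have e3 : DD F (bs F topv) (V F g1 y) ≠ 0 := by
    intro h4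
    apply hD
    rw [← DD_V E g1, e1]
    have := DD_smul c 1 (bs F topv) (V F g1 y)
    rwa [one_smul, h4, smul_zero] at this
  obtain ⟨b, hb, hb'⟩ : ∃ b, p2 b topv = -1 ∧ V F g1 y b ≠ 0 := by
    by_contra hcon
    push Not at hcon
    exact e3 (DD_top_zero hcon e2)
  obtain ⟨g2, hg2, e4⟩ := move p2_w1 chkW1 hb hb'
  have e5 := sym_zero E hg2 e2
  obtain ⟨g3, hg3, e6, e7, -⟩ := clear (P F) w1 e4 (Finset.univ.filter fun n => p2 n w1 = 1 ∧ n ≠ op topv) (by
    intro n hn
    obtain ⟨-, hn1, hn2⟩ := Finset.mem_filter.1 hn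
    refine ⟨hn1, fun r hr c' hm t => xs_mem hr (fun h4 => hn2 ?_) t⟩
    have h5 := p2_add hr hm topv
    rw [p2_w1, h4] at h5
    rw [p2_comm] at h5
    exact p2_eq_neg_three.1 (by omega))
  have e8 := sym_zero E hg3 e5
  refine ⟨g3 * (g2 * g1), c, V F g3 (V F g2 (V F g1 y)) w1, hc, ?_, ?_, ?_⟩
  · rw [e6]
    exact e4
  · rw [map_mul, map_mul, Module.End.mul_apply, Module.End.mul_apply, e1, map_smul, map_smul, mem_P.1 hg2, mem_P.1 hg3]
  · rw [map_mul, map_mul, Module.End.mul_apply, Module.End.mul_apply]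
    refine pure_eq h2 h3 (pure_V E (pure_V E (pure_V E hy _) _) _) (by rw [e6]; exact e4) fun n hn => ?_
    by_cases hn' : n = op topv
    · rw [hn']; exact e8
    · exact e7 n (Finset.mem_filter.2 ⟨Finset.mem_univ _, hn, hn'⟩)

/-- **(T2')** -/
theorem pair_orth (h2 : (2 : F) ≠ 0) (h3 : (3 : F) ≠ 0) {x y : D1 → F} (hx : Pure F x) (hy : Pure F y) (hx0 : x ≠ 0)
    (hxy : ∀ c : F, y ≠ c • x) (hD : DD F x y = 0) :
    ∃ (g : Gh F) (c d : F), c ≠ 0 ∧ d ≠ 0 ∧ V F g x = c • bs F topv ∧ V F g y = d • bs F w2 := by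
  classical
  obtain ⟨g1, c, hc, e1⟩ := pure_top E h2 h3 hx hx0
  have e3 : DD F (bs F topv) (V F g1 y) = 0 := by
    have h4 := (DD_V E (x := x) (y := y) g1).2 hD
    rw [e1] at h4
    have := DD_smul c 1 (bs F topv) (V F g1 y)
    rw [one_smul, h4, mul_one] at this
    exact (smul_eq_zero.1 this.symm).resolve_left hc
  have pers : ∀ g ∈ P F, DD F (bs F topv) (V F g (V F g1 y)) = 0 := by
    intro g hg
    have h4 := (DD_V E (x := bs F topv) (y := V F g1 y) g).2 e3
    rwa [mem_P.1 hg] at h4
  obtain ⟨z1, z2⟩ := top_zero h2 h3 e3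
  obtain ⟨b, hb, hb'⟩ : ∃ b, p2 b topv = 1 ∧ V F g1 y b ≠ 0 := by
    by_contra hcon
    push Not at hcon
    have h4 : V F g1 y = (V F g1 y topv) • bs F topv := by
      funext a
      rw [Pi.smul_apply, smul_eq_mul]
      rcases p2_cases a topv with h5 | h5 | h5 | h5
      · rw [p2_eq_three.1 h5, bs_same, mul_one]
      · have hne : a ≠ topv := by
          rintro rfl
          rw [p2_self] at h5
          omega
        rw [bs_ne hne, mul_zero, hcon a h5]
      · have hne : a ≠ topv := by
          rintro rfl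
          rw [p2_self] at h5
          omega
        rw [bs_ne hne, mul_zero, z1 a h5]
      · have hne : a ≠ topv := by
          rintro rfl
          rw [p2_self] at h5
          omega
        rw [p2_comm] at h5
        rw [bs_ne hne, mul_zero, p2_eq_neg_three.1 h5, z2]
    apply hxy (V F g1 y topv / c)
    have h5 : V F g1 y = V F g1 ((V F g1 y topv / c) • x) := by
      rw [map_smul, e1, smul_smul, div_mul_cancel₀ _ hc]
      exact h4
    have h6 := congrArg (V F g1⁻¹) h5
    rwa [← Module.End.mul_apply, ← Module.End.mul_apply, ← map_mul, inv_mul_cancel, map_one] at h6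
  obtain ⟨g2, hg2, e4⟩ := move p2_w2 chkW2 hb hb'
  obtain ⟨g3, hg3, e6, e7, -⟩ := clear (P F) w2 e4 (Finset.univ.filter fun n => p2 n w2 = 1 ∧ (p2 n topv = 1 ∨ n = topv)) (by
    intro n hn
    obtain ⟨-, hn1, hn2⟩ := Finset.mem_filter.1 hn
    refine ⟨hn1, fun r hr c' hm t => xs_mem hr (fun h4 => ?_) t⟩
    have h5 := p2_add hr hm topv
    rw [p2_w2, h4] at h5
    rcases hn2 with h6 | h6
    · omega
    · rw [h6, p2_self] at h5
      omega)
  obtain ⟨y1, y2⟩ := top_zero h2 h3 (pers _ ((P F).mul_mem hg3 hg2))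
  rw [map_mul, Module.End.mul_apply] at y1 y2
  refine ⟨g3 * (g2 * g1), c, V F g3 (V F g2 (V F g1 y)) w2, hc, ?_, ?_, ?_⟩
  · rw [e6]
    exact e4
  · rw [map_mul, map_mul, Module.End.mul_apply, Module.End.mul_apply, e1, map_smul, map_smul, mem_P.1 hg2, mem_P.1 hg3]
  · rw [map_mul, map_mul, Module.End.mul_apply, Module.End.mul_apply]
    refine pure_eq h2 h3 (pure_V E (pure_V E (pure_V E hy _) _) _) (by rw [e6]; exact e4) fun n hn => ?_
    rcases p2_cases n topv with h5 | h5 | h5 | h5
    · exact e7 n (Finset.mem_filter.2 ⟨Finset.mem_univ _, hn, Or.inr (p2_eq_three.1 h5)⟩)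
    · exact e7 n (Finset.mem_filter.2 ⟨Finset.mem_univ _, hn, Or.inl h5⟩)
    · exact y1 n h5
    · rw [p2_comm] at h5
      rw [p2_eq_neg_three.1 h5]
      exact y2

end

/-! ### root elements as values of `DD` -/

theorem bs_pure (a : D1) : Pure F (bs F a) := by
  show DD F (bs F a) (bs F a) = 0
  unfold DD
  rw [Finset.sum_eq_zero, smul_zero, zero_sub, neg_eq_zero]
  · ext b c
    rw [Matrix.diagonal_apply, Matrix.zero_apply]
    by_cases hab : b = c
    · rw [if_pos hab]
      refine Finset.sum_eq_zero fun e _ => ?_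
      by_cases he : e = a
      · have h1 : op e ≠ a := by rw [he]; exact (ne_op a).symm
        rw [bs_ne h1]
        ring
      · rw [bs_ne he]
        ring
    · rw [if_neg hab]
  · intro r hr
    have hr0 := Finset.mem_range.1 hr
    have hr' : 125 - r < 126 := by omega
    rcases mv_spec hr' a with h | ⟨a', c, h, -⟩
    · have h2 := NM_bs0 (F := F) h
      rw [h2, map_zero, LinearMap.zero_apply, zero_smul]
    · have h2 := NM_bs (F := F) h
      have h4 : op a' ≠ a := by
        intro h5
        have h6 := p2_of_mv hr' h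
        rw [← h5, p2_op', p2_self] at h6
        omega
      rw [h2, map_smul, LinearMap.smul_apply, sf_single, bs_ne h4, mul_zero, smul_zero, zero_smul]

/-- `DD (bs a) (bs (op b))` is a multiple of the root element leading from `b` to `a` -/
theorem DD_bs {r : ℕ} (hr : r < 126) {a b : D1} {c : ℤ} (h : mv r (nn b) = some (nn a, c)) :
    DD F (bs F a) (bs F (op b)) = (-2 * ((c : F) * ((ep b : ℤ) : F))) • NM F r := by
  have hr' : 125 - r < 126 := by omega
  have hinv : mv (125 - r) (nn a) = some (nn b, c) := by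
    rcases mv_spec hr b with h5 | ⟨a', c', h5, -, -, h6⟩
    · rw [h5] at h; exact absurd h (by simp)
    · rw [h5, Option.some.injEq, Prod.mk.injEq] at h
      rw [← nn_inj h.1, ← h.2]
      exact h6
  have hab : a ≠ b := by
    rintro rfl
    have := p2_of_mv hr h
    rw [p2_self] at this
    omega
  unfold DD
  have hdiag : (Matrix.diagonal fun c => ∑ e : D1, bs F a e * ((ep e : ℤ) : F) * bs F (op b) (op e) * ((p2 e c : ℤ) : F)) = 0 := by
    ext b' c'
    rw [Matrix.diagonal_apply, Matrix.zero_apply]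
    by_cases hbc : b' = c'
    · rw [if_pos hbc]
      refine Finset.sum_eq_zero fun e _ => ?_
      by_cases he : e = a
      · have h1 : op e ≠ op b := by
          rw [he]
          intro h2
          have h3 := congrArg op h2
          rw [op_op, op_op] at h3
          exact hab h3
        rw [bs_ne h1]
        ring
      · rw [bs_ne he]
        ring
    · rw [if_neg hbc]
  rw [hdiag, sub_zero, Finset.sum_eq_single r, smul_smul]
  · have h2 := NM_bs (F := F) hinv
    rw [h2, map_smul, LinearMap.smul_apply, sf_single, bs_same, mul_one, smul_eq_mul]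
  · intro r' hr1 hne
    have hr1' := Finset.mem_range.1 hr1
    have hr2 : 125 - r' < 126 := by omega
    rcases mv_spec hr2 a with h5 | ⟨a', c', h5, -⟩
    · have h2 := NM_bs0 (F := F) h5
      rw [h2, map_zero, LinearMap.zero_apply, zero_smul]
    · have h2 := NM_bs (F := F) h5
      have h4 : op a' ≠ op b := by
        intro h6
        have h7 := congrArg op h6
        rw [op_op, op_op] at h7
        rw [h7] at h5
        have h8 := mv_unique hr2 hr' h5 hinv
        omega
      rw [h2, map_smul, LinearMap.smul_apply, sf_single, bs_ne h4, mul_zero, smul_zero, zero_smul]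
  · intro h1
    exact absurd (Finset.mem_range.2 hr) h1

theorem NM_ne {r : ℕ} {a b : D1} {c : ℤ} (h : mv r (nn b) = some (nn a, c)) (hc : c * c = 1) : NM F r ≠ 0 := by
  intro h0
  have h1 : NM F r a b = 0 := by rw [h0]; rfl
  change ((nz r a b : ℤ) : F) = 0 at h1
  rw [nz_some h, if_pos rfl] at h1
  exact cast_ne hc h1

theorem row_ne : ∀ r < 126, ∃ s ∈ Comb.CT, ∃ t ∈ Comb.CT, (mv r s.1).map (fun x => x.1) = some t.1 := by
  have h : (List.range 126).all (fun r => Comb.CT.any fun s => Comb.CT.any fun t => (mv r s.1).map (fun x => x.1) == some t.1) = true := by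
    decide +kernel
  intro r hr
  have h1 := List.all_eq_true.1 h r (List.mem_range.2 hr)
  rw [List.any_eq_true] at h1
  obtain ⟨s, hs, h2⟩ := h1
  rw [List.any_eq_true] at h2
  obtain ⟨t, ht, h3⟩ := h2
  exact ⟨s, hs, t, ht, beq_iff_eq.1 h3⟩

end Tr

end Cfsg.Agent.R2.PX
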