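import Mathlib
import Cfsg.Agent.R2.PX.Tr3

/-!
# Pattern X (S5771), PX2: similitudes normalise the group (helper5)

* `sim_norm` : if `Θ` is a similitude then for every `g` there is `g'` with `V g' ∘ Θ = Θ ∘ V g`.
-/

set_option autoImplicit false
set_option maxRecDepth 100000

namespace Cfsg.Agent.R2.PX

open Cfsg Cfsg.Lie Module Matrix
open Cfsg.Agent.ChevalleyStructure.RootVec
open Cfsg.Agent.H943.E7V.Block (D1 rho)
open Cfsg.Agent.R2.T1

universe u

namespace Tr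

theorem CT_D1 {e : ℕ × List ℤ × List ℤ × ℕ × List ℕ} (he : e ∈ Comb.CT) : ∃ a : D1, nn a = e.1 := by
  have hs : rt chevE8 e.1 7 = 1 ∧ e.1 < 240 := by
    have : ∀ e ∈ Comb.CT, rt chevE8 e.1 7 = 1 ∧ e.1 < 240 := by decide +kernel
    exact this e he
  exact ⟨⟨⟨e.1, hs.2⟩, hs.1⟩, rfl⟩

/-- every root leads somewhere -/
theorem exists_entry {r : ℕ} (hr : r < 126) : ∃ (a b : D1) (c : ℤ), mv r (nn b) = some (nn a, c) ∧ c * c = 1 := by
  obtain ⟨s, hs, t, ht, h⟩ := row_ne r hr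
  obtain ⟨b, hb⟩ := CT_D1 hs
  obtain ⟨a, ha⟩ := CT_D1 ht
  rw [Option.map_eq_some_iff] at h
  obtain ⟨⟨u, c⟩, h2, h3⟩ := h
  have h4 : u = nn a := by rw [ha]; exact h3
  rw [h4, ← hb] at h2
  refine ⟨a, b, c, h2, ?_⟩
  rcases mv_spec hr b with h5 | ⟨a', c', h5, h6, -⟩
  · rw [h5] at h2; exact absurd h2 (by simp)
  · rw [h5, Option.some.injEq, Prod.mk.injEq] at h2
    rw [← h2.2]; exact h6

variable {F : Type u} [Field F]

theorem sim_pure {Θ : (D1 → F) ≃ₗ[F] (D1 → F)} {β : F} (hΘ : IsSim F Θ β) {x y : D1 → F} :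
    DD F (Θ x) (Θ y) = 0 ↔ DD F x y = 0 := by
  constructor
  · intro h
    have h1 : ∀ z, DD F x y *ᵥ z = 0 := by
      intro z
      have h2 := hΘ.dd x y z
      rw [h, Matrix.zero_mulVec] at h2
      have h3 := (smul_eq_zero.1 h2.symm).resolve_left hΘ.ne
      exact (LinearEquiv.map_eq_zero_iff Θ).1 h3
    ext a b
    have h2 := congrFun (h1 (Pi.single b 1)) a
    rw [Matrix.mulVec_single_one, Matrix.col_apply] at h2
    exact h2
  · intro h
    have h1 : ∀ z, DD F (Θ x) (Θ y) *ᵥ z = 0 := by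
      intro z
      have h2 := hΘ.dd x y (Θ.symm z)
      rw [h, Matrix.zero_mulVec, map_zero, smul_zero, LinearEquiv.apply_symm_apply] at h2
      exact h2
    ext a b
    have h2 := congrFun (h1 (Pi.single b 1)) a
    rw [Matrix.mulVec_single_one, Matrix.col_apply] at h2
    exact h2

/-- **(COR)** similitudes normalise the group -/
theorem sim_norm (E : Equi F) (h2 : (2 : F) ≠ 0) (h3 : (3 : F) ≠ 0) {Θ : (D1 → F) ≃ₗ[F] (D1 → F)} {β : F} (hΘ : IsSim F Θ β)
    (g : Gh F) : ∃ g' : Gh F, ∀ v, V F g' (Θ v) = Θ (V F g v) := by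
  let S : Subgroup (Gh F) :=
    { carrier := {g | ∃ g' : Gh F, ∀ v, V F g' (Θ v) = Θ (V F g v)}
      one_mem' := ⟨1, fun v => by rw [map_one]; rfl⟩
      mul_mem' := by
        rintro a b ⟨a', ha⟩ ⟨b', hb⟩
        refine ⟨a' * b', fun v => ?_⟩
        rw [map_mul, map_mul, Module.End.mul_apply, Module.End.mul_apply, hb, ha]
      inv_mem' := by
        rintro a ⟨a', ha⟩
        refine ⟨a'⁻¹, fun v => ?_⟩
        have h1 := ha (V F a⁻¹ v)
        rw [← Module.End.mul_apply (V F a), ← map_mul, mul_inv_cancel, map_one] at h1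
        change _ = Θ v at h1
        rw [← h1, ← Module.End.mul_apply, ← map_mul, inv_mul_cancel, map_one]
        rfl }
  refine mem_of_gens (S := S) (fun r hr t => ?_) g
  show ∃ g' : Gh F, ∀ v, V F g' (Θ v) = Θ (V F (xs F r t) v)
  obtain ⟨a, b, c, hm, hc⟩ := exists_entry hr
  have hD := DD_bs (F := F) hr hm
  have hab : a ≠ b := by
    rintro rfl
    have := p2_of_mv hr hm
    rw [p2_self] at this
    omega
  have hk : (-2 * ((c : F) * ((ep b : ℤ) : F))) ≠ 0 := mul_ne_zero (neg_ne_zero.2 h2) (mul_ne_zero (cast_ne hc) (cast_ne (ep_sq b)))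
  set k : F := -2 * ((c : F) * ((ep b : ℤ) : F)) with hkdef
  have p1 : Pure F (Θ (bs F a)) := (sim_pure hΘ).2 (bs_pure a)
  have p2' : Pure F (Θ (bs F (op b))) := (sim_pure hΘ).2 (bs_pure (op b))
  have hsf : sf F (Θ (bs F a)) (Θ (bs F (op b))) = 0 := by
    rw [hΘ.form, sf_single]
    have h4 : op a ≠ op b := by
      intro h5
      have h6 := congrArg op h5
      rw [op_op, op_op] at h6
      exact hab h6
    rw [bs_ne h4, mul_zero, mul_zero]
  have hne : DD F (Θ (bs F a)) (Θ (bs F (op b))) ≠ 0 := by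
    intro h4
    have h5 := (sim_pure hΘ).1 h4
    rw [hD] at h5
    exact NM_ne hm hc ((smul_eq_zero.1 h5).resolve_left hk)
  obtain ⟨h, c1, d1, hc1, hd1, e1, e2⟩ := pair_symp E h2 h3 p1 p2' hsf hne
  -- the standard pair
  have hw : p2 topv (op w1) = 1 := by rw [p2_op', p2_comm, p2_w1]; rfl
  obtain ⟨r1, hr1, c', hm1, hc'⟩ := exists_mv hw
  have hD1 := DD_bs (F := F) hr1 hm1
  rw [op_op] at hD1
  set k1 : F := -2 * ((c' : F) * ((ep (op w1) : ℤ) : F)) with hk1def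
  have e3 : DD F (V F h (Θ (bs F a))) (V F h (Θ (bs F (op b)))) = (c1 * d1 * k1) • NM F r1 := by
    rw [e1, e2, DD_smul, hD1, smul_smul]
  have e4 := E h (Θ (bs F a)) (Θ (bs F (op b)))
  rw [e3] at e4
  have e5 : ∀ w, (c1 * d1 * k1) • (NM F r1 *ᵥ V F h w) = V F h (DD F (Θ (bs F a)) (Θ (bs F (op b))) *ᵥ w) := by
    intro w
    have h4 := congrArg (fun M : Matrix D1 D1 F => M *ᵥ w) e4
    change ((c1 * d1 * k1) • NM F r1 * rho F h) *ᵥ w = (rho F h * DD F (Θ (bs F a)) (Θ (bs F (op b)))) *ᵥ w at h4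
    rw [← Matrix.mulVec_mulVec, ← Matrix.mulVec_mulVec, Matrix.smul_mulVec] at h4
    exact h4
  refine ⟨h⁻¹ * xs F r1 (t * k⁻¹ * β⁻¹ * (c1 * d1 * k1)) * h, fun v => ?_⟩
  have hinv : ∀ w, V F h⁻¹ (V F h w) = w := by
    intro w
    rw [← Module.End.mul_apply, ← map_mul, inv_mul_cancel, map_one]
    rfl
  rw [map_mul, map_mul, Module.End.mul_apply, Module.End.mul_apply, V_xs hr1, V_xs hr, map_add, map_add, hinv]
  congr 1
  rw [mul_smul, e5, map_smul, hinv, hΘ.dd, hD, Matrix.smul_mulVec, map_smul, map_smul, smul_smul, smul_smul]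
  congr 1
  have := hΘ.ne
  field_simp

end Tr

end Cfsg.Agent.R2.PX
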