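import Cfsg.Agent.R2.PX.Defs

/-!
# Pattern X: configurations (helper3)

`Config F ψ v` : eight pure vectors permuted by `A_8`, with sum 0, pairwise orthogonal, with `(v₀, D(v₁, v₂) v₃) ≠ 0`.
-/

set_option autoImplicit false

namespace Cfsg.Agent.R2.PX

open Cfsg Cfsg.Lie Module Matrix
open Cfsg.Agent.H943.E7V.Block (D1 rho)
open Cfsg.Agent.R2.T1

universe u

/-- the configurations of pattern X -/
structure Config (F : Type u) [Field F] (ψ : ↥(alternatingGroup (Fin 8)) →* Gh F) (v : Fin 8 → D1 → F) : Prop where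
  act : ∀ (p : ↥(alternatingGroup (Fin 8))) (i : Fin 8), V F (ψ p) (v i) = v ((p : Equiv.Perm (Fin 8)) i)
  sum : ∑ i, v i = 0
  pure : ∀ i, Pure F (v i)
  iso : ∀ i j, sf F (v i) (v j) = 0
  ne : sf F (v 0) (DD F (v 1) (v 2) *ᵥ v 3) ≠ 0

end Cfsg.Agent.R2.PX
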