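import Cfsg.Agent.R2.PX.DdE

/-!
# Pattern X: `DD` on the weight vectors and the identity (I) (helper3)

* `DD_bs_root` : `DD (bs a) (bs (op a'))` is a multiple of the root vector of `r` if `-r` maps `a` to `a'`;
* `DD_bs_op`, `DD_bs_zero`;
* `ident` : `DD x y z - DD x z y = 2 sf(y, z) x + sf(x, z) y - sf(x, y) z` (characteristic 5).
-/

set_option autoImplicit false
set_option maxRecDepth 100000

namespace Cfsg.Agent.R2.PX

open Cfsg Cfsg.Lie Matrix
open Cfsg.Agent.R2.T1
open Cfsg.Agent.ChevalleyStructure.Elts Cfsg.Agent.ChevalleyStructure.RootVec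
  Cfsg.Agent.ChevalleyStructure.RootVecTab
open Cfsg.Agent.H943.E7V.Block (D1 rho)

universe u
variable {F : Type u} [Field F]

theorem sf_bs_bs (a b : D1) : sf F (bs F a) (bs F b) = if b = op a then ((ep a : ℤ) : F) else 0 := by
  rw [sf_single]
  by_cases h : b = op a
  · rw [if_pos h, h, bs_self, mul_one]
  · rw [if_neg h, bs_ne (fun h' => h h'.symm), mul_zero]

/-- the diagonal part -/
theorem diag_part (a b c : D1) : ∑ d : D1, bs F a d * ((ep d : ℤ) : F) * bs F b (op d) * ((p2 d c : ℤ) : F) =
    if b = op a then ((ep a : ℤ) : F) * ((p2 a c : ℤ) : F) else 0 := by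
  rw [Finset.sum_eq_single a]
  · rw [bs_self, one_mul]
    by_cases h : b = op a
    · rw [if_pos h, h, bs_self, mul_one]
    · rw [if_neg h, bs_ne (fun h' => h h'.symm), mul_zero, zero_mul]
  · intro d _ hd
    rw [bs_ne hd]; ring
  · intro h; exact absurd (Finset.mem_univ _) h

theorem DD_bs_root {r : ℕ} (hr : r < 126) {a a' : D1} {c : ℤ} (h : mv (125 - r) (nn a) = some (nn a', c)) :
    DD F (bs F a) (bs F (op a')) = (-2 * (c : F) * ((ep a' : ℤ) : F)) • NM F r := by
  have hne : a' ≠ a := by
    rintro rfl
    rcases mv_spec (show 125 - r < 126 by omega) a' with h1 | ⟨a2, c2, h1, -, h2, -⟩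
    · rw [h] at h1; simp at h1
    · rw [h, Option.some.injEq, Prod.mk.injEq] at h1
      rw [← nn_inj h1.1, h] at h2; simp at h2
  rw [DD_eq]
  have h1 : (Matrix.diagonal fun c => ∑ d : D1, bs F a d * ((ep d : ℤ) : F) * bs F (op a') (op d) * ((p2 d c : ℤ) : F)) =
      (0 : Matrix D1 D1 F) := by
    rw [show (fun c => ∑ d : D1, bs F a d * ((ep d : ℤ) : F) * bs F (op a') (op d) * ((p2 d c : ℤ) : F)) = 0 from ?_]
    · exact Matrix.diagonal_zero
    funext c'
    rw [diag_part, if_neg]
    · rfl
    · intro h2
      apply hne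
      have := congrArg op h2
      rwa [op_op, op_op] at this
  rw [h1, sub_zero, Finset.sum_eq_single r]
  · rw [NM_bs_some h, map_smul, LinearMap.smul_apply, sf_bs_bs, if_pos rfl, smul_smul, smul_eq_mul]
    congr 1
    ring
  · intro r' hr' hne'
    have hr2 := Finset.mem_range.1 hr'
    rcases mv_spec (show 125 - r' < 126 by omega) a with h2 | ⟨a2, c2, h2, -, -, -⟩
    · rw [NM_bs_none h2, map_zero, LinearMap.zero_apply, zero_smul]
    · rw [NM_bs_some h2, map_smul, LinearMap.smul_apply, sf_bs_bs, if_neg, smul_zero, zero_smul]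
      intro h3
      have h4 : a' = a2 := by
        have := congrArg op h3
        rwa [op_op, op_op] at this
      subst h4
      have := root_unique (show 125 - r' < 126 by omega) (show 125 - r < 126 by omega) h2 h
      omega
  · intro h2; exact absurd (Finset.mem_range.2 hr) h2

theorem DD_bs_op (a : D1) : DD F (bs F a) (bs F (op a)) =
    - Matrix.diagonal fun c => ((ep a : ℤ) : F) * ((p2 a c : ℤ) : F) := by
  rw [DD_eq]
  have h1 : (fun c => ∑ d : D1, bs F a d * ((ep d : ℤ) : F) * bs F (op a) (op d) * ((p2 d c : ℤ) : F)) =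
      fun c => ((ep a : ℤ) : F) * ((p2 a c : ℤ) : F) := by
    funext c
    rw [diag_part, if_pos rfl]
  rw [h1, Finset.sum_eq_zero, smul_zero, zero_sub]
  intro r hr
  have hr2 := Finset.mem_range.1 hr
  rcases mv_spec (show 125 - r < 126 by omega) a with h2 | ⟨a2, c2, h2, -, h3, -⟩
  · rw [NM_bs_none h2, map_zero, LinearMap.zero_apply, zero_smul]
  · rw [NM_bs_some h2, map_smul, LinearMap.smul_apply, sf_bs_bs, if_neg, smul_zero, zero_smul]
    intro h4
    have h5 : a = a2 := by
      have := congrArg op h4
      rwa [op_op, op_op] at this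
    rw [← h5, h2] at h3; simp at h3

theorem DD_bs_zero {a b : D1} (h0 : b ≠ op a) (h : ∀ r < 126, ∀ c, mv r (nn a) ≠ some (nn (op b), c)) :
    DD F (bs F a) (bs F b) = 0 := by
  rw [DD_eq]
  have h1 : (fun c => ∑ d : D1, bs F a d * ((ep d : ℤ) : F) * bs F b (op d) * ((p2 d c : ℤ) : F)) = 0 := by
    funext c
    rw [diag_part, if_neg h0]; rfl
  rw [h1, show (Matrix.diagonal (0 : D1 → F)) = 0 from Matrix.diagonal_zero, sub_zero, Finset.sum_eq_zero, smul_zero]
  intro r hr
  have hr2 := Finset.mem_range.1 hr
  rcases mv_spec (show 125 - r < 126 by omega) a with h2 | ⟨a2, c2, h2, -, h3, -⟩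
  · rw [NM_bs_none h2, map_zero, LinearMap.zero_apply, zero_smul]
  · rw [NM_bs_some h2, map_smul, LinearMap.smul_apply, sf_bs_bs, if_neg, smul_zero, zero_smul]
    rintro rfl
    apply h (125 - r) (by omega) c2
    rw [h2, op_op]

/-! ### formal sums -/

/-- the vector of a formal sum of weights -/
def fv (F : Type u) [Field F] (L : List (ℕ × ℤ)) : D1 → F := fun a =>
  (((L.filter fun x => Nat.beq x.1 (nn a)).map fun x => x.2).sum : ℤ)

theorem fv_apply (L : List (ℕ × ℤ)) (a : D1) :
    fv F L a = (((L.filter fun x => Nat.beq x.1 (nn a)).map fun x => x.2).sum : ℤ) := rfl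

/-- the check that a formal sum vanishes -/
def fz (L : List (ℕ × ℤ)) : Bool := L.all fun x =>
  decide (((L.filter fun y => Nat.beq y.1 x.1).map fun y => y.2).sum = 0)

theorem fv_zero_of {L : List (ℕ × ℤ)} (h : fz L = true) : fv F L = 0 := by
  funext a
  rw [fv_apply]
  by_cases h1 : ∃ x ∈ L, x.1 = nn a
  · obtain ⟨x, hx, hxa⟩ := h1
    have h2 := List.all_eq_true.1 h x hx
    rw [decide_eq_true_eq, hxa] at h2
    rw [h2]; simp
  · have h2 : (L.filter fun x => Nat.beq x.1 (nn a)) = [] := by
      rw [List.filter_eq_nil_iff]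
      intro x hx hb
      exact h1 ⟨x, hx, Nat.eq_of_beq_eq_true hb⟩
    rw [h2]; simp

theorem fv_append (L M : List (ℕ × ℤ)) : fv F (L ++ M) = fv F L + fv F M := by
  funext a
  rw [Pi.add_apply, fv_apply, fv_apply, fv_apply, List.filter_append, List.map_append, List.sum_append]
  push_cast
  rfl

theorem fv_single (b : D1) (k : ℤ) : fv F [(nn b, k)] = (k : F) • bs F b := by
  funext a
  rw [Pi.smul_apply, bs_apply, fv_apply]
  by_cases h : nn a = nn b
  · rw [List.filter_cons_of_pos (by simp [h]), if_pos h]; simp
  · rw [List.filter_cons_of_neg (by simpa using fun h' => h (Eq.symm h')), if_neg h]; simp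

theorem fv_nil : fv F [] = 0 := by
  funext a
  rw [fv_apply]
  simp

/-! ### the highest weight -/

/-- the roots with `D(e_top, e_b) = 2 N_r` -/
def TT : List (ℕ × ℕ) := [(122, 63), (125, 65), (129, 68), (134, 72), (140, 77), (146, 82), (151, 86), (155, 89),
  (158, 91), (160, 92), (168, 98), (173, 102), (177, 105), (180, 107), (182, 108), (187, 111), (190, 113), (192, 114),
  (196, 116), (198, 117), (201, 118), (206, 120), (208, 121), (211, 122), (215, 123), (220, 124), (227, 125)]

theorem chkTT : (TT.all fun x => decide (x.2 < 126) && decide (x.1 < 240) && decide (rt chevE8 x.1 7 = 1) &&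
    decide (mv (125 - x.2) 238 = some ((st x.1).1, (st x.1).2))) = true := by decide +kernel

theorem chkTT2 : (W56.all fun s => Nat.beq s 120 || (TT.map fun x => x.1).contains s ||
    (List.range 126).all fun r => bif Nat.beq (lk (PT.getD r 0) (238 - 120)) 0 then true else
      !(Nat.beq (lk (PT.getD r 0) (238 - 120) / 2) (st s).1)) = true := by decide +kernel

theorem nn_top : nn topv = 238 := rfl

/-- `D(e_top, e_b) e_c` as a formal sum -/
def tc (b c : ℕ) : List (ℕ × ℤ) :=
  bif Nat.beq b 120 then [(c, - (st 238).2 * p2n 238 c)] else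
    match TT.find? fun x => Nat.beq x.1 b with
    | none => []
    | some x => match mv x.2 c with
      | none => []
      | some (u, k) => [(u, 2 * k)]

theorem op_top : nn (op topv) = 120 := by
  have h := st_nn topv
  rw [← h]
  decide +kernel

theorem tc_spec (b c : D1) : DD F (bs F topv) (bs F b) *ᵥ bs F c = fv F (tc (nn b) (nn c)) := by
  unfold tc
  by_cases hb : nn b = 120
  · have h1 : b = op topv := nn_inj (by rw [hb, op_top])
    rw [hb, show Nat.beq 120 120 = true from rfl, cond_true, h1, DD_bs_op, Matrix.neg_mulVec, diag_bs, fv_single, ← neg_smul]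
    congr 1
    have h2 : (st 238).2 = ep topv := by
      have := st_eq topv
      rw [nn_top] at this
      rw [this]
    rw [h2, p2_nn, nn_top]
    push_cast
    ring
  · have h1 : Nat.beq (nn b) 120 = false := by
      rw [← Bool.not_eq_true]
      intro h; exact hb (Nat.eq_of_beq_eq_true h)
    rw [h1, cond_false]
    rcases hf : TT.find? (fun x => Nat.beq x.1 (nn b)) with _ | x
    · rw [hf, fv_nil]
      have h2 : DD F (bs F topv) (bs F b) = 0 := by
        refine DD_bs_zero (fun h => hb (by rw [h, op_top])) ?_
        intro r hr k h3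
        have h4 := List.all_eq_true.1 chkTT2 (nn b) (nn_mem b)
        rw [Bool.or_eq_true, Bool.or_eq_true, h1] at h4
        rcases h4 with (h4 | h4) | h4
        · exact absurd h4 (by simp)
        · rw [List.contains_iff_mem, List.mem_map] at h4
          obtain ⟨x, hx, hx'⟩ := h4
          rw [List.find?_eq_none] at hf
          exact hf x hx (by rw [hx']; exact Nat.beq_refl _)
        · have h5 := List.all_eq_true.1 h4 r (List.mem_range.2 hr)
          have h6 := lk_PT hr topv
          rw [nn_top] at h6
          rw [nn_top] at h3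
          rw [h6, h3, st_nn] at h5
          have h7 := two_le_nn (op b)
          have h8 : code (some (nn (op b), k)) / 2 = nn (op b) := by
            unfold code
            dsimp only
            cases (k == 1)
            · show (2 * nn (op b) + 1) / 2 = _; omega
            · show (2 * nn (op b) + 0) / 2 = _; omega
          have h9 : code (some (nn (op b), k)) ≠ 0 := by omega
          rw [beq_zero_false h9, cond_false, h8] at h5
          simp at h5
      rw [h2, Matrix.zero_mulVec]
    · rw [hf]
      dsimp only
      have hx := List.mem_of_find?_eq_some hf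
      have hx' : x.1 = nn b := by
        have := List.find?_some hf
        exact Nat.eq_of_beq_eq_true this
      have h2 := List.all_eq_true.1 chkTT x hx
      simp only [Bool.and_eq_true, decide_eq_true_eq] at h2
      obtain ⟨⟨⟨h3, h4⟩, h5⟩, h6⟩ := h2
      rw [hx'] at h6
      have h7 : mv (125 - x.2) (nn topv) = some (nn (op b), ep b) := by
        rw [nn_top, h6, st_eq]
      have h8 := DD_bs_root (F := F) h3 h7
      rw [op_op, ep_op] at h8
      have h9 : (-2 * ((ep b : ℤ) : F) * ((- ep b : ℤ) : F)) = 2 := by
        have := cast_sq (F := F) (ep_sq b)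
        push_cast
        linear_combination 2 * this
      rw [h8, h9, Matrix.smul_mulVec]
      rcases mv_spec h3 c with h10 | ⟨a, k, h10, -, -, -⟩
      · rw [NM_bs_none h10, h10, smul_zero]; exact fv_nil.symm
      · rw [NM_bs_some h10, h10]
        show _ = fv F [(nn a, 2 * k)]
        rw [fv_single, smul_smul]
        push_cast
        rfl

theorem chkI : (W56.all fun b => W56.all fun c =>
    fz (tc b c ++ ((tc c b).map fun x => (x.1, -x.2)) ++
      ((bif Nat.beq c (st b).1 then [(238, -2 * (st b).2)] else []) ++
      (bif Nat.beq c 120 then [(b, - (st 238).2)] else []) ++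
      (bif Nat.beq b 120 then [(c, (st 238).2)] else [])))) = true := by decide +kernel

theorem fv_neg (L : List (ℕ × ℤ)) : fv F (L.map fun x => (x.1, -x.2)) = - fv F L := by
  induction L with
  | nil => rw [List.map_nil, fv_nil, neg_zero]
  | cons x L ih =>
    rw [List.map_cons, ← List.singleton_append, fv_append, ih, ← List.singleton_append (x := x), fv_append,
      _root_.neg_add]
    congr 1
    funext a
    rw [Pi.neg_apply, fv_apply, fv_apply]
    rcases h : Nat.beq x.1 (nn a) <;> simp [h]

theorem ident_top_bs (b c : D1) : DD F (bs F topv) (bs F b) *ᵥ bs F c - DD F (bs F topv) (bs F c) *ᵥ bs F b =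
    (2 * sf F (bs F b) (bs F c)) • bs F topv + sf F (bs F topv) (bs F c) • bs F b - sf F (bs F topv) (bs F b) • bs F c := by
  rw [tc_spec, tc_spec]
  have h := List.all_eq_true.1 (List.all_eq_true.1 chkI (nn b) (nn_mem b)) (nn c) (nn_mem c)
  have h0 := fv_zero_of (F := F) h
  rw [fv_append, fv_append, fv_append, fv_append, fv_neg] at h0
  have hst : (st 238).2 = ep topv := by
    have := st_eq topv
    rw [nn_top] at this
    rw [this]
  have hstb : st (nn b) = (nn (op b), ep b) := st_eq b
  have e1 : fv F (bif Nat.beq (nn c) (st (nn b)).1 then [(238, -2 * (st (nn b)).2)] else []) =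
      - ((2 * sf F (bs F b) (bs F c)) • bs F topv) := by
    rw [hstb, sf_bs_bs]
    by_cases h1 : c = op b
    · rw [if_pos h1, h1, Nat.beq_refl, cond_true, ← nn_top, fv_single, ← neg_smul]
      congr 1
      push_cast
      ring
    · have h2 : Nat.beq (nn c) (nn (op b)) = false := by
        rw [← Bool.not_eq_true]
        intro h3; exact h1 (nn_inj (Nat.eq_of_beq_eq_true h3))
      rw [if_neg h1, h2, cond_false, fv_nil]; simp
  have key : ∀ d d' : D1, fv F (bif Nat.beq (nn d) 120 then [(nn d', (st 238).2)] else []) =
      sf F (bs F topv) (bs F d) • bs F d' := by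
    intro d d'
    rw [sf_bs_bs, hst]
    by_cases h1 : d = op topv
    · rw [if_pos h1, h1, op_top, Nat.beq_refl, cond_true, fv_single]
    · have h2 : Nat.beq (nn d) 120 = false := by
        rw [← Bool.not_eq_true]
        intro h3; exact h1 (nn_inj (by rw [Nat.eq_of_beq_eq_true h3, op_top]))
      rw [if_neg h1, h2, cond_false, fv_nil]; simp
  have e2 : fv F (bif Nat.beq (nn c) 120 then [(nn b, - (st 238).2)] else []) = - (sf F (bs F topv) (bs F c) • bs F b) := by
    rw [← key, ← fv_neg]
    congr 1
    cases Nat.beq (nn c) 120 <;> rfl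
  have e3 := key b c
  rw [e1, e2, e3] at h0
  have h1 : fv F (tc (nn b) (nn c)) - fv F (tc (nn c) (nn b)) - ((2 * sf F (bs F b) (bs F c)) • bs F topv +
      sf F (bs F topv) (bs F c) • bs F b - sf F (bs F topv) (bs F b) • bs F c) = 0 := by
    rw [← h0]; abel
  exact sub_eq_zero.1 h1

theorem vec_sum (v : D1 → F) : v = ∑ a, v a • bs F a := by
  funext b
  rw [Finset.sum_apply, Finset.sum_eq_single b]
  · rw [Pi.smul_apply, bs_self, smul_eq_mul, mul_one]
  · intro a _ ha
    rw [Pi.smul_apply, bs_ne (Ne.symm ha), smul_zero]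
  · intro h; exact absurd (Finset.mem_univ _) h

/-- the defect of the identity as a trilinear map -/
noncomputable def defc (x y z : D1 → F) : D1 → F := DD F x y *ᵥ z - DD F x z *ᵥ y -
  ((2 * sf F y z) • x + sf F x z • y - sf F x y • z)

theorem defc_add_right (x y z z' : D1 → F) : defc x y (z + z') = defc x y z + defc x y z' := by
  unfold defc
  simp only [Matrix.mulVec_add, DD_add_right, Matrix.add_mulVec, map_add, mul_add, add_smul, smul_add]
  abel

theorem defc_smul_right (c : F) (x y z : D1 → F) : defc x y (c • z) = c • defc x y z := by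
  unfold defc
  simp only [Matrix.mulVec_smul, DD_smul_right, Matrix.smul_mulVec, map_smul, smul_eq_mul, smul_sub, smul_add, smul_smul]
  congr 2
  · congr 2 <;> ring_nf
  · ring_nf

theorem defc_zero_right (x y : D1 → F) : defc x y 0 = 0 := by
  have := defc_smul_right 0 x y 0
  rwa [zero_smul, zero_smul] at this

theorem defc_sum_right {ι : Type*} (s : Finset ι) (x y : D1 → F) (f : ι → D1 → F) :
    defc x y (∑ i ∈ s, f i) = ∑ i ∈ s, defc x y (f i) := by
  classical
  induction s using Finset.induction_on with
  | empty => rw [Finset.sum_empty, Finset.sum_empty, defc_zero_right]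
  | insert a s ha ih => rw [Finset.sum_insert ha, Finset.sum_insert ha, defc_add_right, ih]

theorem defc_swap (x y z : D1 → F) : defc x y z = - defc x z y := by
  unfold defc
  rw [sf_swap y z]
  have : (2 * -sf F z y) • x = - ((2 * sf F z y) • x) := by rw [← neg_smul]; ring_nf
  rw [this]
  abel

section five
variable [CharP F 5]

theorem defc_equi (g : Gh F) (x y z : D1 → F) : defc (V F g x) (V F g y) (V F g z) = V F g (defc x y z) := by
  unfold defc
  simp only [DD_V, sf_V, map_sub, map_add, map_smul]

theorem defc_zero (x y z : D1 → F) : defc x y z = 0 := by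
  -- the set of `x` is a submodule
  set W : Submodule F (D1 → F) :=
    { carrier := {x | ∀ y z, defc x y z = 0}
      add_mem' := by
        intro a b ha hb y z
        have h1 : defc (a + b) y z = defc a y z + defc b y z := by
          unfold defc
          simp only [DD_add_left, Matrix.add_mulVec, map_add, LinearMap.add_apply, add_smul, smul_add]
          abel
        rw [h1, ha, hb, add_zero]
      zero_mem' := by
        intro y z
        unfold defc
        rw [DD_zero_left, DD_zero_left]
        simp
      smul_mem' := by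
        intro c a ha y z
        have h1 : defc (c • a) y z = c • defc a y z := by
          unfold defc
          simp only [DD_smul_left, Matrix.smul_mulVec, map_smul, LinearMap.smul_apply, smul_eq_mul, smul_sub, smul_add,
            smul_smul]
          congr 2
          congr 2
          ring_nf
        rw [h1, ha, smul_zero] } with hW
  have hst : ∀ g : Gh F, ∀ w ∈ W, V F g w ∈ W := by
    intro g w hw y z
    have h1 := defc_equi g w (V F g⁻¹ y) (V F g⁻¹ z)
    rw [V_inv', V_inv'] at h1
    rw [h1, hw, map_zero]
  have htop : bs F topv ∈ W := by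
    intro y z
    have h1 : ∀ b c : D1, defc (bs F topv) (bs F b) (bs F c) = 0 := fun b c => by
      unfold defc
      rw [ident_top_bs, sub_self]
    have h2 : ∀ b : D1, ∀ z, defc (bs F topv) (bs F b) z = 0 := by
      intro b z
      rw [vec_sum z, defc_sum_right]
      exact Finset.sum_eq_zero fun c _ => by rw [defc_smul_right, h1, smul_zero]
    rw [defc_swap, vec_sum y, defc_sum_right, neg_eq_zero]
    exact Finset.sum_eq_zero fun c _ => by rw [defc_smul_right, defc_swap, h2, neg_zero, smul_zero]
  have hne : W ≠ ⊥ := by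
    intro h
    rw [h, Submodule.mem_bot] at htop
    have := congrFun htop topv
    rw [bs_self] at this
    exact one_ne_zero this
  have := irred hst hne
  have hx : x ∈ W := by rw [this]; trivial
  exact hx y z

/-- **the identity (I)** -/
theorem ident (x y z : D1 → F) : DD F x y *ᵥ z - DD F x z *ᵥ y =
    (2 * sf F y z) • x + sf F x z • y - sf F x y • z := sub_eq_zero.1 (defc_zero x y z)

end five

end Cfsg.Agent.R2.PX
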