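import Cfsg.Agent.R2.PX.Tab

/-! # Pattern X: kernel check of the commutators, part 1 (helper3, generated) -/

set_option autoImplicit false
set_option maxRecDepth 100000

namespace Cfsg.Agent.R2.PX

theorem chkA_1a : (List.range' 66 12).all chkA = true := by decide +kernel

theorem chkA_1b : (List.range' 78 12).all chkA = true := by decide +kernel

end Cfsg.Agent.R2.PX
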