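import Cfsg.Agent.R2.PX.TabA0
import Cfsg.Agent.R2.PX.TabA1
import Cfsg.Agent.R2.PX.TabA2
import Cfsg.Agent.R2.PX.TabA3

/-!
# Pattern X: the commutators of the root vectors on the 56-dimensional module (helper3)

* `cs r s` : `[e_r, e_s] = c e_u` for `cs r s = some (u, c)`;
* `NM_comm`, `NM_comm_neg` : the commutators of the matrices `NM F r`;
* `Hd F r` : the matrix of the coroot of `r`; `Hi F i` : of the `i`-th simple coroot.
-/

set_option autoImplicit false
set_option maxRecDepth 100000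

namespace Cfsg.Agent.R2.PX

open Cfsg Cfsg.Lie Matrix
open Cfsg.Agent.R2.T1
open Cfsg.Agent.ChevalleyStructure.Elts Cfsg.Agent.ChevalleyStructure.RootVec
  Cfsg.Agent.ChevalleyStructure.RootVecTab
open Cfsg.Agent.H943.E7V.Block (D1 rho)

universe u
variable (F : Type u) [Field F]

/-- the vector of a code -/
def vc (k : ℕ) : D1 → F := fun a => if k = 0 then 0 else if nn a = k / 2 then (if k % 2 = 0 then 1 else -1) else 0

variable {F}

theorem vc_zero : vc F 0 = 0 := by funext a; simp [vc]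

theorem bs_apply (a b : D1) : bs F a b = if nn b = nn a then 1 else 0 := by
  unfold bs
  by_cases h : b = a
  · rw [h]; simp
  · rw [Pi.single_eq_of_ne h, if_neg fun h' => h (nn_inj h')]

theorem NM_bs_none {r : ℕ} {b : D1} (h : mv r (nn b) = none) : NM F r *ᵥ bs F b = 0 := by
  funext x
  rw [bs, Matrix.mulVec_single_one, Matrix.col_apply]
  show ((nz r x b : ℤ) : F) = _
  rw [nz_none h]; simp

theorem NM_bs_some {r : ℕ} {a b : D1} {c : ℤ} (h : mv r (nn b) = some (nn a, c)) :
    NM F r *ᵥ bs F b = (c : F) • bs F a := by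
  funext x
  rw [bs, Matrix.mulVec_single_one, Matrix.col_apply]
  show ((nz r x b : ℤ) : F) = _
  rw [nz_some h, Pi.smul_apply, bs]
  by_cases hx : x = a
  · rw [if_pos hx, hx, Pi.single_eq_same, smul_eq_mul, mul_one]
  · rw [if_neg hx, Pi.single_eq_of_ne hx, smul_zero, Int.cast_zero]

theorem sq_cases {c : ℤ} (h : c * c = 1) : c = 1 ∨ c = -1 := by
  have h1 : (c - 1) * (c + 1) = 0 := by ring_nf; rw [pow_two, h]; rfl
  rcases mul_eq_zero.1 h1 with h | h
  · left; linarith
  · right; linarith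

theorem lk_PT {r : ℕ} (hr : r < 126) (b : D1) : lk (PT.getD r 0) (nn b - 120) = code (mv r (nn b)) := by
  have h := List.all_eq_true.1 (List.all_eq_true.1 chkPT r (List.mem_range.2 hr)) (nn b) (nn_mem b)
  exact Nat.eq_of_beq_eq_true h

/-- codes of signed weights -/
def VC (k : ℕ) : Prop := k = 0 ∨ ∃ b : D1, k / 2 = nn b

theorem two_le_nn (a : D1) : 2 ≤ nn a := by
  have h : ∀ s ∈ W56, 2 ≤ s := by decide +kernel
  exact h _ (nn_mem a)

theorem VC_lk {r : ℕ} (hr : r < 126) (b : D1) : VC (lk (PT.getD r 0) (nn b - 120)) := by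
  rw [lk_PT hr]
  rcases mv_spec hr b with h | ⟨a, c, h, h1, -, -⟩
  · left; rw [h]; rfl
  · right
    refine ⟨a, ?_⟩
    rw [h]
    rcases sq_cases h1 with rfl | rfl
    · show (2 * nn a + 0) / 2 = _
      omega
    · show (2 * nn a + 1) / 2 = _
      omega

theorem beq_zero_false {k : ℕ} (h : k ≠ 0) : Nat.beq k 0 = false := by
  cases k with
  | zero => exact absurd rfl h
  | succ n => rfl

/-- the sign of a code -/
def se (F : Type u) [Field F] (k : ℕ) : F := if k % 2 = 0 then 1 else -1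

theorem vc_ne {k : ℕ} {b : D1} (h0 : k ≠ 0) (h : k / 2 = nn b) : vc F k = se F k • bs F b := by
  funext x
  unfold vc se
  rw [Pi.smul_apply, bs_apply, if_neg h0, h, smul_eq_mul]
  split_ifs <;> simp

theorem se_one : se F 1 = -1 := by unfold se; simp

theorem NM_bs {r : ℕ} (hr : r < 126) (b : D1) : NM F r *ᵥ bs F b = vc F (lk (PT.getD r 0) (nn b - 120)) := by
  rw [lk_PT hr]
  rcases mv_spec hr b with h | ⟨a, c, h, h1, -, -⟩
  · rw [NM_bs_none h, h]; exact vc_zero.symm
  · have h2a := two_le_nn a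
    rw [NM_bs_some h, h]
    rcases sq_cases h1 with rfl | rfl
    · show _ = vc F (2 * nn a + 0)
      rw [vc_ne (b := a) (by omega) (by omega)]
      have : se F (2 * nn a + 0) = 1 := by unfold se; rw [if_pos (by omega)]
      rw [this]; simp
    · show _ = vc F (2 * nn a + 1)
      rw [vc_ne (b := a) (by omega) (by omega)]
      have : se F (2 * nn a + 1) = -1 := by unfold se; rw [if_neg (by omega)]
      rw [this]; simp

theorem se_add (i j : ℕ) : se F (2 * j + (i + j) % 2) = se F i * se F j := by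
  unfold se
  rcases Nat.mod_two_eq_zero_or_one i with hi | hi <;> rcases Nat.mod_two_eq_zero_or_one j with hj | hj
  · rw [if_pos (by omega), if_pos hi, if_pos hj]; ring
  · rw [if_neg (by omega), if_pos hi, if_neg (by omega)]; ring
  · rw [if_neg (by omega), if_neg (by omega), if_pos hj]; ring
  · rw [if_pos (by omega), if_neg (by omega), if_neg (by omega)]; ring

theorem se_half (k j : ℕ) : se F (2 * (j / 2) + (k + j) % 2) = se F k * se F j := by
  unfold se
  rcases Nat.mod_two_eq_zero_or_one k with hi | hi <;> rcases Nat.mod_two_eq_zero_or_one j with hj | hj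
  · rw [if_pos (by omega), if_pos hi, if_pos hj]; ring
  · rw [if_neg (by omega), if_pos hi, if_neg (by omega)]; ring
  · rw [if_neg (by omega), if_neg (by omega), if_pos hj]; ring
  · rw [if_pos (by omega), if_neg (by omega), if_neg (by omega)]; ring

/-- a code of a signed weight is at least 4 -/
theorem VC.ne {k : ℕ} (h : VC k) (h0 : k ≠ 0) : ∃ b : D1, k / 2 = nn b ∧ 2 ≤ nn b := by
  rcases h with h | ⟨b, h⟩
  · exact absurd h h0
  · exact ⟨b, h, two_le_nn b⟩

theorem vc_sg (e : ℕ) {k : ℕ} (hk : VC k) : vc F (sg e k) = se F e • vc F k := by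
  unfold sg
  by_cases h0 : k = 0
  · subst h0; simp [vc_zero]
  · obtain ⟨b, hb, hb2⟩ := hk.ne h0
    have h1 : Nat.beq k 0 = false := beq_zero_false h0
    rw [h1, cond_false, vc_ne (b := b) (by omega) (by omega), vc_ne h0 hb, se_half, smul_smul]

theorem VC_sg (e : ℕ) {k : ℕ} (hk : VC k) : VC (sg e k) := by
  unfold sg
  by_cases h0 : k = 0
  · subst h0; left; rfl
  · obtain ⟨b, hb, hb2⟩ := hk.ne h0
    have h1 : Nat.beq k 0 = false := beq_zero_false h0
    rw [h1, cond_false]
    right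
    exact ⟨b, by omega⟩

theorem NM_vc {r : ℕ} (hr : r < 126) {k : ℕ} (hk : VC k) : NM F r *ᵥ vc F k = vc F (cc (PT.getD r 0) k) := by
  unfold cc
  by_cases h0 : k = 0
  · subst h0; simp [vc_zero]
  · obtain ⟨b, hb, hb2⟩ := hk.ne h0
    have h1 : Nat.beq k 0 = false := beq_zero_false h0
    rw [h1, cond_false, vc_ne h0 hb, Matrix.mulVec_smul, NM_bs hr, hb]
    dsimp only
    have hv := VC_lk hr b
    by_cases h2 : lk (PT.getD r 0) (nn b - 120) = 0
    · rw [h2]; simp [vc_zero]
    · obtain ⟨b', hb', hb2'⟩ := hv.ne h2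
      have h3 : Nat.beq (lk (PT.getD r 0) (nn b - 120)) 0 = false := beq_zero_false h2
      rw [h3, cond_false, vc_ne h2 hb', vc_ne (b := b') (by omega) (by omega), se_half, smul_smul]

theorem VC_cc {r : ℕ} (hr : r < 126) {k : ℕ} (hk : VC k) : VC (cc (PT.getD r 0) k) := by
  unfold cc
  by_cases h0 : k = 0
  · subst h0; left; rfl
  · obtain ⟨b, hb, hb2⟩ := hk.ne h0
    have h1 : Nat.beq k 0 = false := beq_zero_false h0
    rw [h1, cond_false, hb]
    dsimp only
    by_cases h2 : lk (PT.getD r 0) (nn b - 120) = 0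
    · rw [h2]; left; rfl
    · obtain ⟨b', hb', hb2'⟩ := (VC_lk hr b).ne h2
      have h3 : Nat.beq (lk (PT.getD r 0) (nn b - 120)) 0 = false := beq_zero_false h2
      rw [h3, cond_false]
      right
      exact ⟨b', by omega⟩

theorem vc_cm {l1 l2 m : ℕ} (hm : VC m) (h : cm l1 l2 m = true) : vc F l1 - vc F l2 = vc F m := by
  unfold cm at h
  by_cases h0 : m = 0
  · subst h0
    have h1 : l1 = l2 := Nat.eq_of_beq_eq_true h
    rw [h1, vc_zero, sub_self]
  · obtain ⟨b, hb, hb2⟩ := hm.ne h0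
    have h1 : Nat.beq m 0 = false := beq_zero_false h0
    rw [h1, cond_false, Bool.or_eq_true, Bool.and_eq_true, Bool.and_eq_true] at h
    rcases h with ⟨h2, h3⟩ | ⟨h2, h3⟩
    · rw [Nat.eq_of_beq_eq_true h2, Nat.eq_of_beq_eq_true h3, vc_zero, sub_zero]
    · rw [Nat.eq_of_beq_eq_true h2, Nat.eq_of_beq_eq_true h3, vc_zero, vc_ne (b := b) (by omega) (by omega),
        vc_ne h0 hb]
      have h4 : se F (2 * (m / 2) + (m + 1) % 2) = - se F m := by
        rw [Nat.add_comm m 1, se_half, se_one, neg_one_mul]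
      rw [h4, neg_smul]; simp

theorem mat_ext {A B : Matrix D1 D1 F} (h : ∀ b, A *ᵥ bs F b = B *ᵥ bs F b) : A = B := by
  ext a b
  have := congrFun (h b) a
  rwa [bs, Matrix.mulVec_single_one, Matrix.mulVec_single_one] at this

/-- the structure constants -/
def cs (r s : ℕ) : Option (ℕ × ℤ) :=
  if lk (PC.getD r 0) s = 0 then none else
    some ((lk (PC.getD r 0) s - 2) / 2, if lk (PC.getD r 0) s % 2 = 0 then 1 else -1)

variable (F)

/-- the right hand side of the commutator relation -/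
noncomputable def csM (r s : ℕ) : Matrix D1 D1 F :=
  match cs r s with
  | none => 0
  | some (u, c) => (c : F) • NM F u

variable {F}

theorem csM_zero {r s : ℕ} (h : lk (PC.getD r 0) s = 0) : csM F r s = 0 := by
  unfold csM cs; rw [if_pos h]

theorem csM_ne {r s : ℕ} (h : lk (PC.getD r 0) s ≠ 0) :
    csM F r s = se F (lk (PC.getD r 0) s) • NM F ((lk (PC.getD r 0) s - 2) / 2) := by
  unfold csM cs; rw [if_neg h]
  dsimp only
  unfold se
  split_ifs <;> simp

theorem PC_spec {r s : ℕ} (hr : r < 126) (hs : s < 126) :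
    (lk (PC.getD r 0) s = 0 ∧ lk (PC.getD s 0) r = 0) ∨
    (lk (PC.getD r 0) s ≠ 0 ∧ lk (PC.getD s 0) r = 2 * (lk (PC.getD r 0) s / 2) + (lk (PC.getD r 0) s + 1) % 2 ∧
      (lk (PC.getD r 0) s - 2) / 2 < 126 ∧ s ≠ 125 - r ∧ s ≠ r) := by
  have h := List.all_eq_true.1 (List.all_eq_true.1 chkPC2 r (List.mem_range.2 hr)) s (List.mem_range.2 hs)
  simp only [Bool.or_eq_true, Bool.and_eq_true, Bool.not_eq_true'] at h
  rcases h with ⟨h1, h2⟩ | ⟨⟨⟨⟨h1, h2⟩, h3⟩, h4⟩, h5⟩
  · exact Or.inl ⟨Nat.eq_of_beq_eq_true h1, Nat.eq_of_beq_eq_true h2⟩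
  · refine Or.inr ⟨fun h => ?_, Nat.eq_of_beq_eq_true h2, ?_, fun h => ?_, fun h => ?_⟩
    · rw [h] at h1; simp at h1
    · rwa [Nat.blt_eq] at h3
    · rw [h] at h4; simp at h4
    · rw [h] at h5; simp at h5

theorem csM_swap {r s : ℕ} (hr : r < 126) (hs : s < 126) : csM F r s = - csM F s r := by
  rcases PC_spec hr hs with ⟨h1, h2⟩ | ⟨h1, h2, h3, -, -⟩
  · rw [csM_zero h1, csM_zero h2, neg_zero]
  · have h4 : lk (PC.getD s 0) r ≠ 0 := by
      intro h; rw [h] at h2
      have : lk (PC.getD r 0) s = 1 := by omega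
      rw [this] at h2
      have h5 : ((List.range 126).all fun r => let Rr := PC.getD r 0
        (List.range 126).all fun s => !(Nat.beq (lk Rr s) 1)) = true := by decide +kernel
      have h6 := List.all_eq_true.1 (List.all_eq_true.1 h5 r (List.mem_range.2 hr)) s (List.mem_range.2 hs)
      rw [this] at h6
      simp at h6
    rw [csM_ne h1, csM_ne h4, h2]
    have h5 : se F (2 * (lk (PC.getD r 0) s / 2) + (lk (PC.getD r 0) s + 1) % 2) = - se F (lk (PC.getD r 0) s) := by
      rw [Nat.add_comm (lk (PC.getD r 0) s) 1, se_half, se_one, neg_one_mul]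
    rw [h5, neg_smul, _root_.neg_neg]
    congr 2
    omega

theorem comm_of_chk {r s : ℕ} (hr : r < 126) (hs : s < 126)
    (h : chkRS (PT.getD r 0) (PT.getD s 0) (lk (PC.getD r 0) s) = true) :
    NM F r * NM F s - NM F s * NM F r = csM F r s := by
  refine mat_ext fun b => ?_
  rw [Matrix.sub_mulVec, ← Matrix.mulVec_mulVec, ← Matrix.mulVec_mulVec, NM_bs hs, NM_bs hr, NM_vc hr (VC_lk hs b),
    NM_vc hs (VC_lk hr b)]
  unfold chkRS at h
  by_cases h0 : lk (PC.getD r 0) s = 0
  · rw [h0] at h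
    have h1 := List.all_eq_true.1 h (nn b) (nn_mem b)
    rw [vc_cm (Or.inl rfl) h1, csM_zero h0, vc_zero, Matrix.zero_mulVec]
  · have h2 : Nat.beq (lk (PC.getD r 0) s) 0 = false := beq_zero_false h0
    rw [h2, cond_false] at h
    dsimp only at h
    have h1 := List.all_eq_true.1 h (nn b) (nn_mem b)
    have h3 : (lk (PC.getD r 0) s - 2) / 2 < 126 := by
      rcases PC_spec hr hs with ⟨h5, -⟩ | ⟨-, -, h5, -, -⟩
      · exact absurd h5 h0
      · exact h5
    have h4 := VC_lk h3 b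
    rw [vc_cm (VC_sg _ h4) h1, vc_sg _ h4, csM_ne h0, Matrix.smul_mulVec, NM_bs h3]

theorem chkA_all {r : ℕ} (hr : r < 126) : chkA r = true := by
  have key : ∀ a n, (List.range' a n).all chkA = true → a ≤ r → r < a + n → chkA r = true := fun a n h h1 h2 =>
    List.all_eq_true.1 h r (List.mem_range'_1.2 ⟨h1, h2⟩)
  by_cases h1 : r < 33
  · exact key _ _ chkA_0a (by omega) (by omega)
  by_cases h2 : r < 66
  · exact key _ _ chkA_0b (by omega) (by omega)
  by_cases h3 : r < 78
  · exact key _ _ chkA_1a (by omega) (by omega)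
  by_cases h4 : r < 90
  · exact key _ _ chkA_1b (by omega) (by omega)
  by_cases h5 : r < 99
  · exact key _ _ chkA_2a (by omega) (by omega)
  by_cases h6 : r < 109
  · exact key _ _ chkA_2b (by omega) (by omega)
  by_cases h7 : r < 117
  · exact key _ _ chkA_3a (by omega) (by omega)
  · exact key _ _ chkA_3b (by omega) (by omega)

theorem comm_lt {r s : ℕ} (hr : r < 126) (hs : s < r) (hne : s ≠ 125 - r) :
    NM F r * NM F s - NM F s * NM F r = csM F r s := by
  have h := List.all_eq_true.1 (chkA_all hr) s (List.mem_range.2 hs)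
  rw [Bool.or_eq_true] at h
  rcases h with h | h
  · exact absurd (Nat.eq_of_beq_eq_true h) hne
  · exact comm_of_chk hr (by omega) h

/-- **the commutators** -/
theorem NM_comm {r s : ℕ} (hr : r < 126) (hs : s < 126) (hne : s ≠ 125 - r) :
    NM F r * NM F s - NM F s * NM F r = csM F r s := by
  rcases lt_trichotomy s r with h | h | h
  · exact comm_lt hr h hne
  · subst h
    rw [sub_self]
    rcases PC_spec hs hs with ⟨h1, -⟩ | ⟨-, -, -, -, h1⟩
    · exact (csM_zero h1).symm
    · exact absurd rfl h1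
  · have h1 := comm_lt (F := F) hs h (by omega)
    rw [csM_swap hr hs, ← h1]; abel

variable (F)

/-- the matrix of the coroot of the root `r` -/
noncomputable def Hd (r : ℕ) : Matrix D1 D1 F := Matrix.diagonal fun b => ((wr r (nn b) : ℤ) : F)

/-- the matrix of the `i`-th simple coroot -/
noncomputable def Hi (i : ℕ) : Matrix D1 D1 F := Matrix.diagonal fun b => ((chevE8.cartan i (nn b) : ℤ) : F)

variable {F}

theorem wr_spec {r : ℕ} (hr : r < 126) (b : D1) :
    (wr r (nn b) = -1 ∧ mv r (nn b) ≠ none ∧ mv (125 - r) (nn b) = none) ∨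
    (wr r (nn b) = 0 ∧ mv r (nn b) = none ∧ mv (125 - r) (nn b) = none) ∨
    (wr r (nn b) = 1 ∧ mv r (nn b) = none ∧ mv (125 - r) (nn b) ≠ none) := by
  have h := List.all_eq_true.1 (List.all_eq_true.1 chkWr r (List.mem_range.2 hr)) (nn b) (nn_mem b)
  have hr' : 125 - r < 126 := by omega
  rw [lk_PT hr, lk_PT hr'] at h
  have key : ∀ t, t < 126 → (Nat.beq (code (mv t (nn b))) 0 = true ↔ mv t (nn b) = none) := by
    intro t ht
    constructor
    · intro h1
      rcases mv_spec ht b with h2 | ⟨a, c, h2, h3, -, -⟩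
      · exact h2
      · rw [h2] at h1
        have h4 := Nat.eq_of_beq_eq_true h1
        have h5 := two_le_nn a
        unfold code at h4
        dsimp only at h4
        omega
    · intro h1; rw [h1]; rfl
  simp only [Bool.or_eq_true, Bool.and_eq_true, decide_eq_true_eq, Bool.not_eq_true'] at h
  have k1 := key r hr
  have k2 := key (125 - r) hr'
  rcases h with (⟨⟨h1, h2⟩, h3⟩ | ⟨⟨h1, h2⟩, h3⟩) | ⟨⟨h1, h2⟩, h3⟩
  · refine Or.inl ⟨h1, fun h4 => ?_, k2.1 h3⟩
    rw [k1.2 h4] at h2; exact absurd h2 (by simp)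
  · exact Or.inr (Or.inl ⟨h1, k1.1 h2, k2.1 h3⟩)
  · refine Or.inr (Or.inr ⟨h1, k1.1 h2, fun h4 => ?_⟩)
    rw [k2.2 h4] at h3; exact absurd h3 (by simp)

theorem diag_bs (d : D1 → F) (b : D1) : Matrix.diagonal d *ᵥ bs F b = d b • bs F b := by
  funext x
  rw [Matrix.mulVec_diagonal, Pi.smul_apply, smul_eq_mul, bs_apply]
  by_cases h : nn x = nn b
  · rw [nn_inj h]
  · rw [if_neg h, mul_zero, mul_zero]

theorem cast_sq {c : ℤ} (h : c * c = 1) : (c : F) * (c : F) = 1 := by
  rw [← Int.cast_mul, h, Int.cast_one]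

/-- `N_{-r} N_r` on the weight vectors -/
theorem NM_neg_NM {r : ℕ} (hr : r < 126) (b : D1) :
    NM F (125 - r) *ᵥ (NM F r *ᵥ bs F b) = (if mv r (nn b) = none then (0 : F) else 1) • bs F b := by
  rcases mv_spec hr b with h | ⟨a, c, h, h1, -, h3⟩
  · rw [NM_bs_none h, if_pos h, Matrix.mulVec_zero, zero_smul]
  · rw [NM_bs_some h, Matrix.mulVec_smul, NM_bs_some h3, smul_smul, cast_sq h1, if_neg (by rw [h]; simp), one_smul]

theorem NM_comm_neg {r : ℕ} (hr : r < 126) : NM F r * NM F (125 - r) - NM F (125 - r) * NM F r = Hd F r := by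
  have hr' : 125 - r < 126 := by omega
  refine mat_ext fun b => ?_
  rw [Matrix.sub_mulVec, ← Matrix.mulVec_mulVec, ← Matrix.mulVec_mulVec, NM_neg_NM hr]
  have h1 := NM_neg_NM (F := F) hr' b
  rw [sub_sub_r hr] at h1
  rw [h1, Hd, diag_bs, ← sub_smul]
  congr 1
  rcases wr_spec hr b with ⟨h2, h3, h4⟩ | ⟨h2, h3, h4⟩ | ⟨h2, h3, h4⟩
  · rw [h2, if_pos h4, if_neg h3]; simp
  · rw [h2, if_pos h4, if_pos h3]; simp
  · rw [h2, if_neg h4, if_pos h3]; simp

theorem NM_neg_mul {r : ℕ} (hr : r < 126) : NM F r * NM F (125 - r) * NM F r = NM F r := by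
  refine mat_ext fun b => ?_
  rw [← Matrix.mulVec_mulVec, ← Matrix.mulVec_mulVec, NM_neg_NM hr]
  by_cases h : mv r (nn b) = none
  · rw [if_pos h, zero_smul, Matrix.mulVec_zero, NM_bs_none h]
  · rw [if_neg h, one_smul]

end Cfsg.Agent.R2.PX
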