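import Cfsg.Agent.R2.PX.Del

/-!
# Pattern X: the map `dd : V × V → L` (helper3)

* `dd x y : chevE7.Idx → F`, `del_dd : del (dd x y) = DD x y`;
* bilinearity, symmetry `dd_comm`, `DD_comm`;
* `sf_NM`, `sf_del` : `sf (n x) y = - sf x (n y)`;
* `sumD1` : sums over the weights.
-/

set_option autoImplicit false
set_option maxRecDepth 100000

namespace Cfsg.Agent.R2.PX

open Cfsg Cfsg.Lie Matrix
open Cfsg.Agent.R2.T1
open Cfsg.Agent.ChevalleyStructure.Elts Cfsg.Agent.ChevalleyStructure.RootVec
  Cfsg.Agent.ChevalleyStructure.RootVecTab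
open Cfsg.Agent.H943.E7V.Block (D1 rho)

universe u
variable {F : Type u} [Field F]

/-! ### the weights -/

theorem W56_nodup : W56.Nodup := by decide +kernel

/-- sums over the weights -/
theorem sumD1 {A : Type*} [AddCommMonoid A] (f : ℕ → A) : ∑ c : D1, f (nn c) = (W56.map f).sum := by
  rw [← List.sum_toFinset f W56_nodup]
  refine Finset.sum_bij (fun c _ => nn c) (fun c _ => List.mem_toFinset.2 (nn_mem c)) (fun a _ b _ h => nn_inj h) ?_
    (fun _ _ => rfl)
  intro s hs
  have h := W56_spec s (List.mem_toFinset.1 hs)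
  exact ⟨⟨⟨s, h.1⟩, h.2⟩, Finset.mem_univ _, rfl⟩

/-- the pairing of weights in terms of the indices -/
def p2n (s u : ℕ) : ℤ := 2 * ((List.range 8).map fun i => rt chevE8 s i * chevE8.cartan i u).sum - 1

theorem p2_nn (a b : D1) : p2 a b = p2n (nn a) (nn b) := rfl

/-- the coordinates of twice a weight in the simple roots -/
def mmn (s i : ℕ) : ℤ := 2 * rt chevE8 s i - [2, 3, 4, 6, 5, 4, 3].getD i 0

theorem chkP2 : (W56.all fun s => W56.all fun u => decide (p2n s u =
    ((List.range 7).map fun i => mmn s i * chevE8.cartan i u).sum)) = true := by decide +kernel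

theorem p2_eq (a c : D1) : p2 a c = ((List.range 7).map fun i => mmn (nn a) i * chevE8.cartan i (nn c)).sum := by
  have h := List.all_eq_true.1 (List.all_eq_true.1 chkP2 (nn a) (nn_mem a)) (nn c) (nn_mem c)
  rw [p2_nn]
  simpa using h

theorem sum_range7 {A : Type*} [AddCommMonoid A] (f : ℕ → A) :
    ((List.range 7).map f).sum = ∑ i : Fin chevE7.rank, f i := by
  have : ∀ n, (List.map f (List.range n)).sum = ∑ i ∈ Finset.range n, f i := by
    intro n
    induction n with
    | zero => rfl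
    | succ n ih => rw [List.range_succ, List.map_append, List.sum_append, ih, Finset.sum_range_succ]; simp
  rw [this]
  show _ = ∑ i : Fin 7, f i
  rw [Finset.sum_fin_eq_sum_range]
  refine Finset.sum_congr rfl fun i hi => ?_
  rw [dif_pos (Finset.mem_range.1 hi)]

theorem st_nn (a : D1) : (st (nn a)).1 = nn (op a) := by rw [st_eq]

theorem chkOp : (W56.all fun s => (List.range 7).all fun i => decide (chevE8.cartan i (st s).1 = - chevE8.cartan i s) &&
    decide (mmn (st s).1 i = - mmn s i)) = true := by decide +kernel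

theorem cartan_op (a : D1) {i : ℕ} (hi : i < 7) : chevE8.cartan i (nn (op a)) = - chevE8.cartan i (nn a) := by
  have h := List.all_eq_true.1 (List.all_eq_true.1 chkOp (nn a) (nn_mem a)) i (List.mem_range.2 hi)
  rw [Bool.and_eq_true, decide_eq_true_eq, decide_eq_true_eq, st_nn] at h
  exact h.1

theorem mmn_op (a : D1) {i : ℕ} (hi : i < 7) : mmn (nn (op a)) i = - mmn (nn a) i := by
  have h := List.all_eq_true.1 (List.all_eq_true.1 chkOp (nn a) (nn_mem a)) i (List.mem_range.2 hi)
  rw [Bool.and_eq_true, decide_eq_true_eq, decide_eq_true_eq, st_nn] at h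
  exact h.2

/-! ### the form -/

theorem sf_NM {r : ℕ} (hr : r < 126) (x y : D1 → F) : sf F (NM F r *ᵥ x) y = - sf F x (NM F r *ᵥ y) := by
  rw [sf_apply, sf_apply]
  have h := NM_JM (F := F) hr
  have h1 : (NM F r)ᵀ * JM F = - (JM F * NM F r) := eq_neg_of_add_eq_zero_left h
  rw [← Matrix.vecMul_transpose, ← Matrix.dotProduct_mulVec, Matrix.mulVec_mulVec, Matrix.mulVec_mulVec, h1,
    Matrix.neg_mulVec, dotProduct_neg]

theorem Hi_mulVec (i : ℕ) (x : D1 → F) (a : D1) : (Hi F i *ᵥ x) a = ((chevE8.cartan i (nn a) : ℤ) : F) * x a := by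
  rw [Hi, Matrix.mulVec_diagonal]

theorem sf_Hi {i : ℕ} (hi : i < 7) (x y : D1 → F) : sf F (Hi F i *ᵥ x) y = - sf F x (Hi F i *ᵥ y) := by
  rw [sf_sum, sf_sum, ← Finset.sum_neg_distrib]
  refine Finset.sum_congr rfl fun a _ => ?_
  rw [Hi_mulVec, Hi_mulVec, cartan_op a hi]
  push_cast
  ring

theorem sf_del (z : chevE7.Idx → F) (x y : D1 → F) : sf F (del F z *ᵥ x) y = - sf F x (del F z *ᵥ y) := by
  rw [del_apply, Matrix.add_mulVec, Matrix.add_mulVec, Matrix.sum_mulVec, Matrix.sum_mulVec, Matrix.sum_mulVec,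
    Matrix.sum_mulVec, map_add, map_add, LinearMap.add_apply, map_sum, map_sum, map_sum, map_sum, LinearMap.sum_apply,
    LinearMap.sum_apply, _root_.neg_add, ← Finset.sum_neg_distrib, ← Finset.sum_neg_distrib]
  congr 1
  · refine Finset.sum_congr rfl fun i _ => ?_
    rw [Matrix.smul_mulVec, Matrix.smul_mulVec, map_smul, map_smul, LinearMap.smul_apply, sf_Hi i.2, smul_neg]
  · refine Finset.sum_congr rfl fun s _ => ?_
    rw [Matrix.smul_mulVec, Matrix.smul_mulVec, map_smul, map_smul, LinearMap.smul_apply, sf_NM s.2, smul_neg]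

/-! ### `dd` -/

/-- the element `D(x, y)` of the Lie algebra -/
noncomputable def dd (x y : D1 → F) : chevE7.Idx → F :=
  Sum.elim (fun i => - ∑ a : D1, x a * ((ep a : ℤ) : F) * y (op a) * ((mmn (nn a) i : ℤ) : F))
    (fun r => -2 * sf F (NM F (125 - r) *ᵥ x) y)

theorem dd_inl (x y : D1 → F) (i : Fin chevE7.rank) :
    dd x y (Sum.inl i) = - ∑ a : D1, x a * ((ep a : ℤ) : F) * y (op a) * ((mmn (nn a) i : ℤ) : F) := rfl

theorem dd_inr (x y : D1 → F) (r : Fin chevE7.nroots) : dd x y (Sum.inr r) = -2 * sf F (NM F (125 - r) *ᵥ x) y := rfl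

theorem del_dd (x y : D1 → F) : del F (dd x y) = DD F x y := by
  rw [del_apply, DD]
  simp only [dd_inl, dd_inr]
  rw [sub_eq_add_neg, add_comm]
  congr 1
  · rw [Finset.smul_sum]
    show ∑ s : Fin 126, _ = _
    rw [Finset.sum_fin_eq_sum_range]
    refine Finset.sum_congr rfl fun i hi => ?_
    rw [dif_pos (Finset.mem_range.1 hi), smul_smul]
  · refine mat_ext fun b => ?_
    rw [Matrix.sum_mulVec, Matrix.neg_mulVec, diag_bs]
    simp only [Matrix.smul_mulVec, Hi, diag_bs, smul_smul]
    rw [← Finset.sum_smul, ← neg_smul]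
    congr 1
    simp only [neg_mul, Finset.sum_neg_distrib, Finset.sum_mul]
    rw [Finset.sum_comm]
    congr 1
    refine Finset.sum_congr rfl fun a _ => ?_
    rw [p2_eq, sum_range7, Int.cast_sum, Finset.mul_sum]
    refine Finset.sum_congr rfl fun i _ => ?_
    rw [Int.cast_mul]
    ring

theorem dd_comm (x y : D1 → F) : dd x y = dd y x := by
  funext j
  rcases j with i | r
  · rw [dd_inl, dd_inl]
    congr 1
    rw [← Equiv.sum_comp opE]
    refine Finset.sum_congr rfl fun a _ => ?_
    show x (op a) * ((ep (op a) : ℤ) : F) * y (op (op a)) * ((mmn (nn (op a)) i : ℤ) : F) = _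
    rw [op_op, ep_op, mmn_op a i.2]
    push_cast
    ring
  · have hr : 125 - (r : ℕ) < 126 := by omega
    rw [dd_inr, dd_inr, sf_NM hr, sf_swap]
    ring

theorem DD_comm (x y : D1 → F) : DD F x y = DD F y x := by rw [← del_dd, dd_comm, del_dd]

theorem dd_add_left (x x' y : D1 → F) : dd (x + x') y = dd x y + dd x' y := by
  funext j
  rcases j with i | r
  · rw [Pi.add_apply, dd_inl, dd_inl, dd_inl, ← _root_.neg_add, ← Finset.sum_add_distrib]
    congr 1
    refine Finset.sum_congr rfl fun a _ => ?_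
    rw [Pi.add_apply]; ring
  · rw [Pi.add_apply, dd_inr, dd_inr, dd_inr, Matrix.mulVec_add, map_add, LinearMap.add_apply]
    ring

theorem dd_smul_left (c : F) (x y : D1 → F) : dd (c • x) y = c • dd x y := by
  funext j
  rcases j with i | r
  · rw [Pi.smul_apply, dd_inl, dd_inl, smul_neg, Finset.smul_sum]
    congr 1
    refine Finset.sum_congr rfl fun a _ => ?_
    rw [Pi.smul_apply, smul_eq_mul, smul_eq_mul]; ring
  · rw [Pi.smul_apply, dd_inr, dd_inr, Matrix.mulVec_smul, map_smul, LinearMap.smul_apply, smul_eq_mul, smul_eq_mul]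
    ring

theorem dd_add_right (x y y' : D1 → F) : dd x (y + y') = dd x y + dd x y' := by
  rw [dd_comm, dd_add_left, dd_comm y, dd_comm y']

theorem dd_smul_right (c : F) (x y : D1 → F) : dd x (c • y) = c • dd x y := by
  rw [dd_comm, dd_smul_left, dd_comm y]

/-- `dd` as a bilinear map -/
noncomputable def ddL (F : Type u) [Field F] : (D1 → F) →ₗ[F] (D1 → F) →ₗ[F] (chevE7.Idx → F) :=
  LinearMap.mk₂ F dd dd_add_left dd_smul_left dd_add_right dd_smul_right

theorem ddL_apply (x y : D1 → F) : ddL F x y = dd x y := rfl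

/-- `DD` as a bilinear map -/
noncomputable def DDL (F : Type u) [Field F] : (D1 → F) →ₗ[F] (D1 → F) →ₗ[F] Matrix D1 D1 F :=
  (ddL F).compr₂ (del F)

theorem DDL_apply (x y : D1 → F) : DDL F x y = DD F x y := by
  rw [← del_dd]; rfl

theorem DD_add_left (x x' y : D1 → F) : DD F (x + x') y = DD F x y + DD F x' y := by
  rw [← DDL_apply, map_add, LinearMap.add_apply, DDL_apply, DDL_apply]

theorem DD_add_right (x y y' : D1 → F) : DD F x (y + y') = DD F x y + DD F x y' := by
  rw [← DDL_apply, map_add, DDL_apply, DDL_apply]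

theorem DD_smul_left (c : F) (x y : D1 → F) : DD F (c • x) y = c • DD F x y := by
  rw [← DDL_apply, map_smul, LinearMap.smul_apply, DDL_apply]

theorem DD_smul_right (c : F) (x y : D1 → F) : DD F x (c • y) = c • DD F x y := by
  rw [← DDL_apply, map_smul, DDL_apply]

theorem DD_zero_left (y : D1 → F) : DD F 0 y = 0 := by rw [← DDL_apply, map_zero, LinearMap.zero_apply]

theorem DD_zero_right (x : D1 → F) : DD F x 0 = 0 := by rw [← DDL_apply, map_zero]

theorem DD_neg_left (x y : D1 → F) : DD F (-x) y = - DD F x y := by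
  rw [← DDL_apply, map_neg, LinearMap.neg_apply, DDL_apply]

theorem DD_neg_right (x y : D1 → F) : DD F x (-y) = - DD F x y := by
  rw [← DDL_apply, map_neg, DDL_apply]

theorem DD_sum_left {ι : Type*} (s : Finset ι) (f : ι → D1 → F) (y : D1 → F) :
    DD F (∑ i ∈ s, f i) y = ∑ i ∈ s, DD F (f i) y := by
  rw [← DDL_apply, map_sum, LinearMap.sum_apply]
  exact Finset.sum_congr rfl fun i _ => DDL_apply _ _

theorem DD_sum_right {ι : Type*} (s : Finset ι) (x : D1 → F) (f : ι → D1 → F) :
    DD F x (∑ i ∈ s, f i) = ∑ i ∈ s, DD F x (f i) := by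
  rw [← DDL_apply, map_sum]
  exact Finset.sum_congr rfl fun i _ => DDL_apply _ _

theorem sf_DD (x y u v : D1 → F) : sf F (DD F x y *ᵥ u) v = - sf F u (DD F x y *ᵥ v) := by
  rw [← del_dd, sf_del]

end Cfsg.Agent.R2.PX
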