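import Cfsg.Agent.R2.PX.Dd
import Cfsg.Agent.R2.T1.Inf.Emb

/-!
# Pattern X: the trace form and the equivariance of `dd` (helper3)

* `trace_del_DD` : `trace (del z * DD x y) = -24 * sf (del z x) y`;
* `del_injective` (characteristic 5);
* `dd_equi` : `adM g *ᵥ dd x y = dd (V g x) (V g y)`, `DD_equi`.
-/

set_option autoImplicit false
set_option maxRecDepth 100000

namespace Cfsg.Agent.R2.PX

open Cfsg Cfsg.Lie Matrix
open Cfsg.Agent.R2.T1
open Cfsg.Agent.ChevalleyStructure.Elts Cfsg.Agent.ChevalleyStructure.RootVec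
  Cfsg.Agent.ChevalleyStructure.RootVecTab
open Cfsg.Agent.H943.E7V.Block (D1 rho)

universe u
variable {F : Type u} [Field F]

/-! ### traces -/

/-- a code for the coordinates of a root -/
def ce (s : ℕ) : ℕ := ((List.range 7).map fun i => (rt chevE7 s i + 10).toNat * 20 ^ i).sum

theorem ce_nodup : ((List.range 126).map ce).Nodup := by decide +kernel

theorem root_unique {s s' : ℕ} (hs : s < 126) (hs' : s' < 126) {a b : D1} {c c' : ℤ}
    (h : mv s (nn b) = some (nn a, c)) (h' : mv s' (nn b) = some (nn a, c')) : s = s' := by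
  have h1 : ce s = ce s' := by
    unfold ce
    congr 1
    refine List.map_congr_left fun i hi => ?_
    have hi7 := List.mem_range.1 hi
    have e1 := mv_rt hs h i
    have e2 := mv_rt hs' h' i
    rw [rt_iota s hs i hi7] at e1
    rw [rt_iota s' hs' i hi7] at e2
    have : rt chevE7 s i = rt chevE7 s' i := by linarith
    rw [this]
  exact List.inj_on_of_nodup_map ce_nodup (List.mem_range.2 hs) (List.mem_range.2 hs') h1

theorem trace_col (A : Matrix D1 D1 F) : Matrix.trace A = ∑ b, (A *ᵥ bs F b) b := by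
  unfold Matrix.trace
  refine Finset.sum_congr rfl fun b _ => ?_
  rw [bs, Matrix.mulVec_single_one]
  rfl

theorem bs_self (b : D1) : bs F b b = 1 := by rw [bs_apply, if_pos rfl]

theorem bs_ne {a b : D1} (h : b ≠ a) : bs F a b = 0 := by rw [bs_apply, if_neg fun h' => h (nn_inj h')]

theorem chk12 : ((List.range 126).all fun r =>
    decide ((W56.map fun s => (bif Nat.beq (lk (PT.getD r 0) (s - 120)) 0 then (0 : ℤ) else 1)).sum = 12)) = true := by
  decide +kernel

theorem mv_none_iff {r : ℕ} (hr : r < 126) (b : D1) : mv r (nn b) = none ↔ lk (PT.getD r 0) (nn b - 120) = 0 := by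
  rw [lk_PT hr]
  constructor
  · intro h; rw [h]; rfl
  · intro h
    rcases mv_spec hr b with h2 | ⟨a, c, h2, h3, -, -⟩
    · exact h2
    · rw [h2] at h
      have h5 := two_le_nn a
      unfold code at h
      dsimp only at h
      omega

theorem trace_NM_neg {s : ℕ} (hs : s < 126) : Matrix.trace (NM F s * NM F (125 - s)) = 12 := by
  have hs' : 125 - s < 126 := by omega
  rw [trace_col]
  have h1 : ∀ b : D1, ((NM F s * NM F (125 - s)) *ᵥ bs F b) b =
      (((bif Nat.beq (lk (PT.getD (125 - s) 0) (nn b - 120)) 0 then (0 : ℤ) else 1) : ℤ) : F) := by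
    intro b
    have h2 := NM_neg_NM (F := F) hs' b
    rw [sub_sub_r hs] at h2
    rw [← Matrix.mulVec_mulVec, h2, Pi.smul_apply, bs_self, smul_eq_mul, mul_one]
    by_cases h : mv (125 - s) (nn b) = none
    · rw [if_pos h, (mv_none_iff hs' b).1 h]; simp
    · rw [if_neg h, beq_zero_false fun h' => h ((mv_none_iff hs' b).2 h')]; simp
  rw [Finset.sum_congr rfl fun b _ => h1 b, ← Int.cast_sum,
    sumD1 (fun t => (bif Nat.beq (lk (PT.getD (125 - s) 0) (t - 120)) 0 then (0 : ℤ) else 1))]
  have h3 := List.all_eq_true.1 chk12 (125 - s) (List.mem_range.2 hs')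
  rw [decide_eq_true_eq] at h3
  rw [h3]; norm_num

theorem trace_NM {r s : ℕ} (hr : r < 126) (hs : s < 126) (h : r ≠ 125 - s) : Matrix.trace (NM F s * NM F r) = 0 := by
  rw [trace_col]
  refine Finset.sum_eq_zero fun b _ => ?_
  rw [← Matrix.mulVec_mulVec]
  rcases mv_spec hr b with h1 | ⟨a, c, h1, -, -, h2⟩
  · rw [NM_bs_none h1, Matrix.mulVec_zero]; rfl
  · rw [NM_bs_some h1, Matrix.mulVec_smul, Pi.smul_apply]
    rcases mv_spec hs a with h3 | ⟨b', c', h3, -, -, -⟩
    · rw [NM_bs_none h3]; simp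
    · rw [NM_bs_some h3, Pi.smul_apply]
      have hne : b ≠ b' := by
        rintro rfl
        have := root_unique hs (show 125 - r < 126 by omega) h3 h2
        omega
      rw [bs_ne hne]; simp

theorem trace_NM_diag {s : ℕ} (hs : s < 126) (d : D1 → F) : Matrix.trace (NM F s * Matrix.diagonal d) = 0 := by
  rw [trace_col]
  refine Finset.sum_eq_zero fun b _ => ?_
  rw [← Matrix.mulVec_mulVec, diag_bs, Matrix.mulVec_smul, Pi.smul_apply]
  rcases mv_spec hs b with h1 | ⟨a, c, h1, -, h2, -⟩
  · rw [NM_bs_none h1]; simp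
  · rw [NM_bs_some h1, Pi.smul_apply]
    have hne : b ≠ a := by
      rintro rfl
      rw [h1] at h2; simp at h2
    rw [bs_ne hne]; simp

theorem chk24 : (W56.all fun s => (List.range 7).all fun i =>
    decide ((W56.map fun u => chevE8.cartan i u * p2n s u).sum = 24 * chevE8.cartan i s)) = true := by decide +kernel

theorem sum24 (a : D1) {i : ℕ} (hi : i < 7) : ∑ c : D1, chevE8.cartan i (nn c) * p2 a c = 24 * chevE8.cartan i (nn a) := by
  have h := List.all_eq_true.1 (List.all_eq_true.1 chk24 (nn a) (nn_mem a)) i (List.mem_range.2 hi)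
  rw [decide_eq_true_eq] at h
  rw [← h, ← sumD1 (fun u => chevE8.cartan i u * p2n (nn a) u)]
  rfl

theorem DD_eq (x y : D1 → F) : DD F x y = (-2 : F) • (∑ r ∈ Finset.range 126, sf F (NM F (125 - r) *ᵥ x) y • NM F r) -
    Matrix.diagonal fun c => ∑ a : D1, x a * ((ep a : ℤ) : F) * y (op a) * ((p2 a c : ℤ) : F) := rfl

theorem trace_NM_DD {s : ℕ} (hs : s < 126) (x y : D1 → F) :
    Matrix.trace (NM F s * DD F x y) = -24 * sf F (NM F s *ᵥ x) y := by
  rw [DD_eq, Matrix.mul_sub, Matrix.trace_sub, trace_NM_diag hs, sub_zero, Matrix.mul_smul, Matrix.trace_smul,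
    Finset.mul_sum, Matrix.trace_sum, Finset.sum_eq_single (125 - s)]
  · rw [Matrix.mul_smul, Matrix.trace_smul, trace_NM_neg hs, sub_sub_r hs, smul_eq_mul, smul_eq_mul]
    ring
  · intro r hr hne
    rw [Matrix.mul_smul, Matrix.trace_smul, trace_NM (Finset.mem_range.1 hr) hs hne, smul_zero]
  · intro h
    exact absurd (Finset.mem_range.2 (by omega)) h

theorem trace_Hi_DD {i : ℕ} (hi : i < 7) (x y : D1 → F) :
    Matrix.trace (Hi F i * DD F x y) = -24 * sf F (Hi F i *ᵥ x) y := by
  rw [DD_eq, Matrix.mul_sub, Matrix.trace_sub, Matrix.mul_smul, Matrix.trace_smul, Finset.mul_sum, Matrix.trace_sum,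
    Finset.sum_eq_zero, smul_zero, zero_sub, Hi, Matrix.diagonal_mul_diagonal, Matrix.trace_diagonal, sf_sum]
  · have h1 : ∀ c : D1, ((chevE8.cartan i (nn c) : ℤ) : F) * ∑ a : D1, x a * ((ep a : ℤ) : F) * y (op a) * ((p2 a c : ℤ) : F) =
        ∑ a : D1, x a * ((ep a : ℤ) : F) * y (op a) * ((chevE8.cartan i (nn c) * p2 a c : ℤ) : F) := by
      intro c
      rw [Finset.mul_sum]
      refine Finset.sum_congr rfl fun a _ => ?_
      push_cast
      ring
    rw [Finset.sum_congr rfl fun c _ => h1 c, Finset.sum_comm, Finset.mul_sum, ← Finset.sum_neg_distrib]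
    refine Finset.sum_congr rfl fun a _ => ?_
    rw [← Finset.mul_sum, ← Int.cast_sum, sum24 a hi, Matrix.mulVec_diagonal]
    push_cast
    ring
  · intro r hr
    rw [Matrix.mul_smul, Matrix.trace_smul, Hi, Matrix.trace_mul_comm, trace_NM_diag (Finset.mem_range.1 hr), smul_zero]

/-- **the trace formula** -/
theorem trace_del_DD (z : chevE7.Idx → F) (x y : D1 → F) :
    Matrix.trace (del F z * DD F x y) = -24 * sf F (del F z *ᵥ x) y := by
  rw [del_apply, Matrix.add_mul, Finset.sum_mul, Finset.sum_mul, Matrix.trace_add, Matrix.trace_sum, Matrix.trace_sum,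
    Matrix.add_mulVec, Matrix.sum_mulVec, Matrix.sum_mulVec, map_add, LinearMap.add_apply, map_sum, map_sum,
    LinearMap.sum_apply, LinearMap.sum_apply, mul_add, Finset.mul_sum, Finset.mul_sum]
  congr 1
  · refine Finset.sum_congr rfl fun i _ => ?_
    rw [Matrix.smul_mul, Matrix.trace_smul, trace_Hi_DD i.2, Matrix.smul_mulVec, map_smul, LinearMap.smul_apply,
      smul_eq_mul, smul_eq_mul]
    ring
  · refine Finset.sum_congr rfl fun s _ => ?_
    rw [Matrix.smul_mul, Matrix.trace_smul, trace_NM_DD s.2, Matrix.smul_mulVec, map_smul, LinearMap.smul_apply,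
      smul_eq_mul, smul_eq_mul]
    ring

/-! ### characteristic 5 -/

section five
variable [CharP F 5]

theorem five_zero : (5 : F) = 0 := by
  have := CharP.cast_eq_zero F 5
  exact_mod_cast this

theorem two_ne : (2 : F) ≠ 0 := by
  intro h
  have h5 : (5 : F) = 0 := five_zero
  have : (1 : F) = 0 := by linear_combination h5 - 2 * h
  exact one_ne_zero this

theorem twelve_ne : (12 : F) ≠ 0 := by
  intro h
  have h5 : (5 : F) = 0 := five_zero
  apply two_ne (F := F)
  linear_combination h - 2 * h5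

theorem trace_del_DD' (z : chevE7.Idx → F) (x y : D1 → F) :
    Matrix.trace (del F z * DD F x y) = sf F (del F z *ᵥ x) y := by
  have h5 : (5 : F) = 0 := five_zero
  rw [trace_del_DD]
  linear_combination (-5 * sf F (del F z *ᵥ x) y) * h5

theorem del_eq_zero {z : chevE7.Idx → F} (h : ∀ x y, Matrix.trace (del F z * DD F x y) = 0) : del F z = 0 := by
  refine mat_ext fun b => ?_
  rw [Matrix.zero_mulVec]
  exact sf_nondeg' fun y => by rw [← trace_del_DD', h]

omit [CharP F 5] in
theorem trace_del_NM (z : chevE7.Idx → F) (s : Fin chevE7.nroots) :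
    Matrix.trace (del F z * NM F (125 - s)) = 12 * z (Sum.inr s) := by
  have hs : (s : ℕ) < 126 := s.2
  rw [del_apply, Matrix.add_mul, Finset.sum_mul, Finset.sum_mul, Matrix.trace_add, Matrix.trace_sum, Matrix.trace_sum,
    Finset.sum_eq_zero, zero_add, Finset.sum_eq_single s]
  · rw [Matrix.smul_mul, Matrix.trace_smul, trace_NM_neg hs, smul_eq_mul]; ring
  · intro r _ hne
    rw [Matrix.smul_mul, Matrix.trace_smul, trace_NM (by omega) r.2, smul_zero]
    intro h
    apply hne
    have hr : (r : ℕ) < 126 := r.2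
    exact Fin.ext (by omega)
  · intro h; exact absurd (Finset.mem_univ _) h
  · intro i _
    rw [Matrix.smul_mul, Matrix.trace_smul, Hi, Matrix.trace_mul_comm, trace_NM_diag (by omega), smul_zero]

/-- the module of the Lie algebra is faithful -/
theorem del_inj {z : chevE7.Idx → F} (h : del F z = 0) : z = 0 := by
  have hr : ∀ s : Fin chevE7.nroots, z (Sum.inr s) = 0 := by
    intro s
    have h1 := trace_del_NM z s
    rw [h, Matrix.zero_mul, Matrix.trace_zero] at h1
    exact (mul_eq_zero.1 h1.symm).resolve_left twelve_ne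
  have hb : ∀ b : D1, ∑ i : Fin chevE7.rank, z (Sum.inl i) * ((chevE8.cartan i (nn b) : ℤ) : F) = 0 := by
    intro b
    have h1 : (del F z *ᵥ bs F b) b = 0 := by rw [h, Matrix.zero_mulVec]; rfl
    rw [del_apply] at h1
    simp only [hr, zero_smul, Finset.sum_const_zero, add_zero] at h1
    rw [Matrix.sum_mulVec, Finset.sum_apply] at h1
    rw [← h1]
    refine Finset.sum_congr rfl fun i _ => ?_
    rw [Matrix.smul_mulVec, Pi.smul_apply, Hi_mulVec, bs_self, mul_one, smul_eq_mul]
  funext j
  rcases j with i | s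
  · have h1 : ∑ k : Fin 7, (((bi.getD i []).getD k 0 : ℤ) : F) *
        ∑ j : Fin chevE7.rank, z (Sum.inl j) * ((chevE8.cartan j (nn (bd k)) : ℤ) : F) = 0 :=
      Finset.sum_eq_zero fun k _ => by rw [hb, mul_zero]
    have h2 : ∀ j : Fin chevE7.rank, ∑ k : Fin 7, (((bi.getD i []).getD k 0 : ℤ) : F) *
        ((chevE8.cartan j (nn (bd k)) : ℤ) : F) = if (i : ℕ) = (j : ℕ) then 1 else 0 := by
      intro j
      have h3 := bi_bw i i.2 j j.2
      have h4 : ((List.range 7).map fun k => (bi.getD i []).getD k 0 * chevE8.cartan j (bw.getD k 0)).sum =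
          ∑ k : Fin 7, (bi.getD i []).getD k 0 * chevE8.cartan j (bw.getD k 0) := by
        rw [sum_range7]; rfl
      rw [h4] at h3
      have h5 : ∑ k : Fin 7, (((bi.getD i []).getD k 0 : ℤ) : F) * ((chevE8.cartan j (nn (bd k)) : ℤ) : F) =
          ((∑ k : Fin 7, (bi.getD i []).getD k 0 * chevE8.cartan j (bw.getD k 0) : ℤ) : F) := by
        rw [Int.cast_sum]
        refine Finset.sum_congr rfl fun k _ => ?_
        rw [Int.cast_mul]
        rfl
      rw [h5, h3]
      split_ifs <;> simp
    simp only [Finset.mul_sum] at h1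
    rw [Finset.sum_comm] at h1
    have h6 : ∀ j : Fin chevE7.rank, ∑ k : Fin 7, (((bi.getD i []).getD k 0 : ℤ) : F) *
        (z (Sum.inl j) * ((chevE8.cartan j (nn (bd k)) : ℤ) : F)) = if i = j then z (Sum.inl j) else 0 := by
      intro j
      have : ∀ k : Fin 7, (((bi.getD i []).getD k 0 : ℤ) : F) *
        (z (Sum.inl j) * ((chevE8.cartan j (nn (bd k)) : ℤ) : F)) = z (Sum.inl j) * ((((bi.getD i []).getD k 0 : ℤ) : F) *
          ((chevE8.cartan j (nn (bd k)) : ℤ) : F)) := fun k => by ring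
      rw [Finset.sum_congr rfl fun k _ => this k, ← Finset.mul_sum, h2 j]
      by_cases hij : i = j
      · rw [if_pos hij, if_pos (by rw [hij]), mul_one]
      · rw [if_neg hij, if_neg fun h => hij (Fin.ext h), mul_zero]
    rw [Finset.sum_congr rfl fun j _ => h6 j, Finset.sum_ite_eq, if_pos (Finset.mem_univ _)] at h1
    exact h1
  · exact hr s

theorem del_injective : Function.Injective (del F) := by
  intro z w h
  have h1 : del F (z - w) = 0 := by rw [map_sub, h, sub_self]
  exact sub_eq_zero.1 (del_inj h1)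

/-- **equivariance** -/
theorem dd_equi (g : Gh F) (x y : D1 → F) : adM F g *ᵥ dd x y = dd (V F g x) (V F g y) := by
  have hg : rho F g⁻¹ * rho F g = 1 := by rw [← map_mul, inv_mul_cancel, map_one]
  have hg' : rho F g * rho F g⁻¹ = 1 := by rw [← map_mul, mul_inv_cancel, map_one]
  rw [← sub_eq_zero]
  apply del_inj
  apply del_eq_zero
  intro u v
  rw [map_sub, Matrix.sub_mul, Matrix.trace_sub, sub_eq_zero]
  set w := dd u v with hw
  rw [← del_dd u v, ← hw]
  have e1 : del F (adM F g *ᵥ dd x y) = rho F g * del F (dd x y) * rho F g⁻¹ := by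
    rw [del_equi two_ne g (dd x y), Matrix.mul_assoc, hg', Matrix.mul_one]
  have e2 : rho F g⁻¹ * del F w * rho F g = del F (adM F g⁻¹ *ᵥ w) := by
    rw [del_equi two_ne g⁻¹ w, Matrix.mul_assoc, hg, Matrix.mul_one]
  calc Matrix.trace (del F (adM F g *ᵥ dd x y) * del F w)
      = Matrix.trace (rho F g⁻¹ * del F w * rho F g * del F (dd x y)) := by
        rw [e1, Matrix.mul_assoc, Matrix.mul_assoc, Matrix.trace_mul_comm, Matrix.mul_assoc, Matrix.trace_mul_comm]
    _ = sf F ((rho F g⁻¹ * del F w * rho F g) *ᵥ x) y := by rw [e2, del_dd, trace_del_DD']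
    _ = sf F (V F g ((rho F g⁻¹ * del F w * rho F g) *ᵥ x)) (V F g y) := by rw [sf_V]
    _ = sf F (del F w *ᵥ V F g x) (V F g y) := by
        congr 2
        rw [V_apply, V_apply, Matrix.mulVec_mulVec, Matrix.mulVec_mulVec, ← Matrix.mul_assoc, ← Matrix.mul_assoc, hg',
          Matrix.one_mul]
    _ = _ := by rw [← trace_del_DD', ← del_dd, Matrix.trace_mul_comm]

theorem dd_L (g : Gh F) (x y : D1 → F) : L F g (dd x y) = dd (V F g x) (V F g y) := by
  rw [L_adM, Matrix.toLin'_apply, dd_equi]

theorem DD_equi (g : Gh F) (x y : D1 → F) : DD F (V F g x) (V F g y) * rho F g = rho F g * DD F x y := by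
  rw [← del_dd, ← dd_equi, ← del_equi two_ne, del_dd]

theorem DD_V (g : Gh F) (x y z : D1 → F) : DD F (V F g x) (V F g y) *ᵥ V F g z = V F g (DD F x y *ᵥ z) := by
  rw [V_apply g z, V_apply g (DD F x y *ᵥ z), Matrix.mulVec_mulVec, Matrix.mulVec_mulVec, DD_equi]

end five

end Cfsg.Agent.R2.PX
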