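import Mathlib
import Cfsg.Agent.R2.T1.Inf.Form
import Cfsg.Agent.R2.T1.Inf.Cen
import Cfsg.Agent.R2.T1.Inf.Cnt

/-!
# Pattern X of S5771 (`A_8` in `E₇(5^a)`): common definitions (helper3)

`F` is a field of characteristic 5, `Gh F` the simply connected group of type `E₇`, `V F` its module `D1 → F` with
the symplectic form `sf F`.

* `p2 a b` : twice the inner product of the weights `a`, `b`: 3 if `a = b`, -3 if `b = op a`, else `1` or `-1`;
* `DD F x y` : the element of the Lie algebra (a matrix on `D1`) with `trace (DD x y * n) = -24 * sf (n x) y` for `n`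
  in the Lie algebra; `DD x y z - DD x z y = 2 sf(y, z) x + sf(x, z) y - sf(x, y) z`;
* `Pure F x` : `DD x x = 0`;
* `IsSim F Θ b` : `Θ` is a similitude with multiplier `b`.
-/

set_option autoImplicit false

namespace Cfsg.Agent.R2.PX

open Cfsg Cfsg.Lie Module Matrix
open Cfsg.Agent.H120.StSeven
open Cfsg.Agent.ChevalleyStructure.Elts Cfsg.Agent.ChevalleyStructure.RootVec
  Cfsg.Agent.ChevalleyStructure.RootVecTab
open Cfsg.Agent.H943.E7V.Block (D1 rho)
open Cfsg.Agent.R2.T1

universe u

/-- twice the inner product of two weights -/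
def p2 (a b : D1) : ℤ := 2 * ((List.range 8).map fun i => rt chevE8 (nn a) i * chevE8.cartan i (nn b)).sum - 1

section
variable (F : Type u) [Field F]

/-- the element `D(x, y)` of the Lie algebra -/
noncomputable def DD (x y : D1 → F) : Matrix D1 D1 F :=
  (-2 : F) • (∑ r ∈ Finset.range 126, sf F (NM F (125 - r) *ᵥ x) y • NM F r) -
    Matrix.diagonal fun c => ∑ a : D1, x a * ((ep a : ℤ) : F) * y (op a) * ((p2 a c : ℤ) : F)

/-- pure vectors (highest weight vectors and 0) -/
def Pure (x : D1 → F) : Prop := DD F x x = 0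

/-- similitudes with multiplier `b` -/
structure IsSim (Θ : (D1 → F) ≃ₗ[F] (D1 → F)) (b : F) : Prop where
  ne : b ≠ 0
  form : ∀ x y, sf F (Θ x) (Θ y) = b * sf F x y
  dd : ∀ x y z, DD F (Θ x) (Θ y) *ᵥ Θ z = b • Θ (DD F x y *ᵥ z)

end

end Cfsg.Agent.R2.PX
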