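import Cfsg.Agent.R2.PX.Com
import Cfsg.Agent.R2.T1.Inf.Dia

/-!
# Pattern X: the Lie algebra in the endomorphisms of the 56-dimensional module (helper3)

* `del : (chevE7.Idx → F) →ₗ Matrix D1 D1 F` : the action of the Lie algebra on the 56-dimensional module;
* `del_equi` : `rho g * del z = del (adM g z) * rho g`.
-/

set_option autoImplicit false
set_option maxRecDepth 100000

namespace Cfsg.Agent.R2.PX

open Cfsg Cfsg.Lie Matrix
open Cfsg.Agent.R2.T1
open Cfsg.Agent.ChevalleyStructure.Elts Cfsg.Agent.ChevalleyStructure.RootVec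
  Cfsg.Agent.ChevalleyStructure.RootVecTab
open Cfsg.Agent.ChevalleyStructure.StTheta
open Cfsg.Agent.H943.E7V.Block (D1 rho)

universe u
variable {F : Type u} [Field F]

theorem filter_range {α : Type*} (g : ℕ → Option (ℕ × α)) (hg : ∀ x y, g x = some y → y.1 = x) (s n : ℕ) :
    ((List.range n).filterMap g).filter (fun e => decide (e.1 = s)) = if s < n then (g s).toList else [] := by
  induction n with
  | zero => simp
  | succ n ih =>
    rw [List.range_succ, List.filterMap_append, List.filter_append, ih]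
    by_cases h1 : s < n
    · rw [if_pos h1, if_pos (by omega)]
      have : (List.filterMap g [n]).filter (fun e => decide (e.1 = s)) = [] := by
        rw [List.filter_eq_nil_iff]
        intro e he
        rw [List.mem_filterMap] at he
        obtain ⟨x, hx, hx'⟩ := he
        rw [List.mem_singleton] at hx
        have h2 := hg x e hx'
        simp only [decide_eq_true_eq]
        omega
      rw [this, List.append_nil]
    · rw [if_neg h1, List.nil_append]
      by_cases h2 : s = n
      · subst h2
        rw [if_pos (by omega)]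
        rcases h3 : g s with _ | y
        · simp [h3]
        · have := hg s y h3
          simp [h3, this]
      · rw [if_neg (by omega), List.filter_eq_nil_iff]
        intro e he
        rw [List.mem_filterMap] at he
        obtain ⟨x, hx, hx'⟩ := he
        rw [List.mem_singleton] at hx
        have h3 := hg x e hx'
        simp only [decide_eq_true_eq]
        omega

theorem flat_map_aux (s : ℕ) (f : List (ℕ × ℤ) → List (ℕ × ℤ)) : ∀ (A : List (ℕ × Array (ℕ × ℤ)))
    (B : List (ℕ × List (ℕ × ℤ))), (A.map fun e => (e.1, e.2.toList)) = B →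
    ((A.filter fun e => decide (e.1 = s)).flatMap fun e => f e.2.toList) =
      ((B.filter fun e => decide (e.1 = s)).flatMap fun e => f e.2) := by
  rintro A B rfl
  induction A with
  | nil => rfl
  | cons a A ih =>
    rw [List.map_cons]
    by_cases h : a.1 = s
    · rw [List.filter_cons_of_pos (by simpa using h), List.filter_cons_of_pos (by simpa using h), List.flatMap_cons,
        List.flatMap_cons, ih]
    · rw [List.filter_cons_of_neg (by simpa using h), List.filter_cons_of_neg (by simpa using h), ih]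

theorem chain_aux (k u : ℕ) : ((([((k - 2) / 2, (bif Nat.beq (k % 2) 0 then (1 : ℤ) else -1))] : List (ℕ × ℤ)).zipIdx.filter
    (fun q => decide (q.1.1 = u))).map fun q => (q.2 + 1, q.1.2)) =
    if (k - 2) / 2 = u then [(1, if k % 2 = 0 then 1 else -1)] else [] := by
  rcases Nat.mod_two_eq_zero_or_one k with h1 | h1
  · rw [h1]
    by_cases h2 : (k - 2) / 2 = u
    · simp [h2]
    · simp [h2]
  · rw [h1, show Nat.beq 1 0 = false from rfl, cond_false]
    by_cases h2 : (k - 2) / 2 = u
    · simp [h2]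
    · simp [h2]

theorem chainCoeff_E7 {r s : ℕ} (hr : r < 126) (hs : s < 126) (u : ℕ) : chevE7.chainCoeff r s u =
    match cs r s with
    | none => []
    | some (v, c) => if v = u then [(1, c)] else [] := by
  have h := List.all_eq_true.1 chkPC r (List.mem_range.2 hr)
  rw [beq_iff_eq] at h
  unfold ChevalleyDatum.chainCoeff
  rw [flat_map_aux s (fun L => ((L.zipIdx).filter (fun q => q.1.1 = u)).map fun q => (q.2 + 1, q.1.2)) _ _ h,
    filter_range, if_pos hs]
  · unfold cs
    by_cases h0 : lk (PC.getD r 0) s = 0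
    · rw [if_pos h0, h0]; rfl
    · rw [if_neg h0]
      dsimp only
      rw [beq_zero_false h0]
      simp only [cond_false, Option.toList_some, List.flatMap_cons, List.flatMap_nil, List.append_nil]
      exact chain_aux _ _
  · intro x y hxy
    dsimp only at hxy
    by_cases h0 : lk (PC.getD r 0) x = 0
    · rw [h0] at hxy; simp at hxy
    · rw [beq_zero_false h0] at hxy
      simp only [cond_false, Option.some.injEq] at hxy
      rw [← hxy]

variable (F)

/-- the action of the Lie algebra on the 56-dimensional module -/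
noncomputable def del : (chevE7.Idx → F) →ₗ[F] Matrix D1 D1 F where
  toFun z := (∑ i : Fin chevE7.rank, z (Sum.inl i) • Hi F i) + ∑ s : Fin chevE7.nroots, z (Sum.inr s) • NM F s
  map_add' z w := by
    simp only [Pi.add_apply, add_smul, Finset.sum_add_distrib]
    abel
  map_smul' c z := by
    simp only [Pi.smul_apply, smul_eq_mul, mul_smul, RingHom.id_apply, smul_add, Finset.smul_sum]

variable {F}

theorem del_apply (z : chevE7.Idx → F) : del F z =
    (∑ i : Fin chevE7.rank, z (Sum.inl i) • Hi F i) + ∑ s : Fin chevE7.nroots, z (Sum.inr s) • NM F s := rfl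

theorem del_inl (i : Fin chevE7.rank) : del F (Pi.single (Sum.inl i) 1) = Hi F i := by
  rw [del_apply, Finset.sum_eq_single i]
  · rw [Finset.sum_eq_zero, Pi.single_eq_same, one_smul, add_zero]
    intro s _
    rw [Pi.single_eq_of_ne (by simp), zero_smul]
  · intro j _ hj
    rw [Pi.single_eq_of_ne (by simpa using hj), zero_smul]
  · intro h; exact absurd (Finset.mem_univ _) h

theorem del_inr (s : Fin chevE7.nroots) : del F (Pi.single (Sum.inr s) 1) = NM F s := by
  rw [del_apply, Finset.sum_eq_zero, zero_add, Finset.sum_eq_single s]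
  · rw [Pi.single_eq_same, one_smul]
  · intro j _ hj
    rw [Pi.single_eq_of_ne (by simpa using hj), zero_smul]
  · intro h; exact absurd (Finset.mem_univ _) h
  · intro s _
    rw [Pi.single_eq_of_ne (by simp), zero_smul]

theorem Hd_eq (r : ℕ) : Hd F r = ∑ i : Fin chevE7.rank, (((chevE7.coroot.getD r #[]).getD i 0 : ℤ) : F) • Hi F i := by
  refine mat_ext fun b => ?_
  rw [Hd, diag_bs, Matrix.sum_mulVec]
  simp only [Matrix.smul_mulVec, Hi, diag_bs, smul_smul]
  rw [← Finset.sum_smul]
  congr 1
  unfold wr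
  have h : (List.map (fun i => (chevE7.coroot.getD r #[]).getD i 0 * chevE8.cartan i (nn b)) (List.range 7)).sum =
      ∑ i : Fin 7, (chevE7.coroot.getD r #[]).getD i 0 * chevE8.cartan i (nn b) := by
    rw [Finset.sum_fin_eq_sum_range]
    have : ∀ n, (List.map (fun i => (chevE7.coroot.getD r #[]).getD i 0 * chevE8.cartan i (nn b)) (List.range n)).sum =
        ∑ i ∈ Finset.range n, (chevE7.coroot.getD r #[]).getD i 0 * chevE8.cartan i (nn b) := by
      intro n
      induction n with
      | zero => rfl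
      | succ n ih => rw [List.range_succ, List.map_append, List.sum_append, ih, Finset.sum_range_succ]; simp
    rw [this]
    refine Finset.sum_congr rfl fun i hi => ?_
    rw [dif_pos (Finset.mem_range.1 hi)]
  rw [h, Int.cast_sum]
  refine Finset.sum_congr rfl fun i _ => ?_
  rw [Int.cast_mul]

theorem neg_E7 : ∀ r < 126, chevE7.negIdx.getD r 0 = 125 - r := by decide +kernel

theorem NM_mul_self {r : ℕ} (hr : r < 126) : NM F r * NM F r = 0 := NM_sq hr

/-- the coroot of `r` acts as `1` on the image of the root vector of `r` -/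
theorem Hd_NM {r : ℕ} (hr : r < 126) : Hd F r * NM F r = NM F r := by
  rw [← NM_comm_neg hr, Matrix.sub_mul, Matrix.mul_assoc (NM F (125 - r)), NM_mul_self hr, Matrix.mul_zero, sub_zero,
    NM_neg_mul hr]

theorem Hi_comm {r i : ℕ} (hr : r < 126) (hi : i < 7) :
    Hi F i * NM F r - NM F r * Hi F i = ((chevE7.cartan i r : ℤ) : F) • NM F r := by
  refine mat_ext fun b => ?_
  rw [Matrix.sub_mulVec, ← Matrix.mulVec_mulVec, ← Matrix.mulVec_mulVec, Matrix.smul_mulVec, Hi, diag_bs,
    Matrix.mulVec_smul]
  rcases mv_spec hr b with h | ⟨a, c, h, h1, -, -⟩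
  · rw [NM_bs_none h]; simp
  · rw [NM_bs_some h, Matrix.mulVec_smul, diag_bs, smul_smul, smul_smul, smul_smul, ← sub_smul]
    congr 1
    rw [cart_add hr h hi]
    push_cast
    ring

/-- the second commutator vanishes -/
theorem chkPC3 : ((List.range 126).all fun r => let Rr := PC.getD r 0
    (List.range 126).all fun s => Nat.beq (lk Rr s) 0 || (Nat.beq (lk Rr ((lk Rr s - 2) / 2)) 0 &&
      !(Nat.beq ((lk Rr s - 2) / 2) (125 - r)))) = true := by
  decide +kernel

theorem csM_NM {r s : ℕ} (h2 : (2 : F) ≠ 0) (hr : r < 126) (hs : s < 126) (hne : s ≠ 125 - r) :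
    csM F r s * NM F r = 0 := by
  by_cases h0 : lk (PC.getD r 0) s = 0
  · rw [csM_zero h0, Matrix.zero_mul]
  · have h := List.all_eq_true.1 (List.all_eq_true.1 chkPC3 r (List.mem_range.2 hr)) s (List.mem_range.2 hs)
    rw [Bool.or_eq_true] at h
    rcases h with h | h
    · exact absurd (Nat.eq_of_beq_eq_true h) h0
    rw [Bool.and_eq_true, Bool.not_eq_true'] at h
    have hu : (lk (PC.getD r 0) s - 2) / 2 < 126 := by
      rcases PC_spec hr hs with ⟨h5, -⟩ | ⟨-, -, h5, -, -⟩
      · exact absurd h5 h0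
      · exact h5
    have h3 : NM F r * NM F ((lk (PC.getD r 0) s - 2) / 2) - NM F ((lk (PC.getD r 0) s - 2) / 2) * NM F r = 0 := by
      rw [NM_comm hr hu (fun h4 => by rw [← h4] at h; simp at h)]
      exact csM_zero (Nat.eq_of_beq_eq_true h.1)
    have h4 := NM_comm (F := F) hr hs hne
    have h5 : NM F r * csM F r s - csM F r s * NM F r = 0 := by
      rw [csM_ne h0, Matrix.mul_smul, Matrix.smul_mul, ← smul_sub, h3, smul_zero]
    -- `N_r N_s N_r = 0`
    have h6 : NM F r * (NM F s * NM F r) = 0 := by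
      rw [← h4] at h5
      have h7 : (2 : F) • (NM F r * (NM F s * NM F r)) = 0 := by
        have e1 : NM F r * (NM F r * NM F s - NM F s * NM F r) - (NM F r * NM F s - NM F s * NM F r) * NM F r =
            (NM F r * NM F r) * NM F s - (2 : F) • (NM F r * (NM F s * NM F r)) + NM F s * (NM F r * NM F r) := by
          rw [two_smul]; noncomm_ring
        rw [e1, NM_mul_self hr, Matrix.zero_mul, Matrix.mul_zero, add_zero, zero_sub, neg_eq_zero] at h5
        exact h5
      exact (smul_eq_zero.1 h7).resolve_left h2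
    rw [← h4, Matrix.sub_mul, Matrix.mul_assoc, h6, Matrix.mul_assoc, NM_mul_self hr, Matrix.mul_zero, sub_zero]

theorem del_x_inl {r : ℕ} (hr : r < 126) (t : F) (i : Fin chevE7.rank) :
    del F (chevE7.x F r t *ᵥ Pi.single (Sum.inl i) 1) = Hi F i - (((chevE7.cartan i r : ℤ) : F) * t) • NM F r := by
  have hr' : r < chevE7.nroots := hr
  rw [x_of_lt hr', Matrix.mulVec_single_one, del_apply]
  rw [Finset.sum_eq_single i, Finset.sum_eq_single ⟨r, hr⟩]
  · show (if i = i then (1 : F) else 0) • Hi F i +
      (if (⟨r, hr⟩ : Fin chevE7.nroots) = ⟨r, hr'⟩ then _ else (0 : F)) • NM F r = _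
    rw [if_pos rfl, if_pos rfl, one_smul, neg_mul, neg_smul, sub_eq_add_neg]
    rfl
  · intro s _ hs
    show (if s = ⟨r, hr'⟩ then _ else (0 : F)) • NM F s = 0
    rw [if_neg hs, zero_smul]
  · intro h; exact absurd (Finset.mem_univ _) h
  · intro j _ hj
    show (if j = i then (1 : F) else 0) • Hi F j = 0
    rw [if_neg hj, zero_smul]
  · intro h; exact absurd (Finset.mem_univ _) h

theorem del_x_self {r : ℕ} (hr : r < 126) (t : F) :
    del F (chevE7.x F r t *ᵥ Pi.single (Sum.inr ⟨r, hr⟩) 1) = NM F r := by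
  have hr' : r < chevE7.nroots := hr
  rw [x_of_lt hr', Matrix.mulVec_single_one, del_apply, Finset.sum_eq_zero, zero_add, Finset.sum_eq_single ⟨r, hr⟩]
  · simp [ChevalleyDatum.xMat, Matrix.col_apply]
  · intro s _ hs
    simp [ChevalleyDatum.xMat, Matrix.col_apply, hs]
  · intro h; exact absurd (Finset.mem_univ _) h
  · intro j _
    simp [ChevalleyDatum.xMat, Matrix.col_apply]

theorem del_x_neg {r : ℕ} (hr : r < 126) (t : F) :
    del F (chevE7.x F r t *ᵥ Pi.single (Sum.inr ⟨125 - r, by show _ < 126; omega⟩) 1) =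
      NM F (125 - r) + t • Hd F r - (t ^ 2) • NM F r := by
  have hr' : r < chevE7.nroots := hr
  have hne : (⟨125 - r, by show _ < 126; omega⟩ : Fin chevE7.nroots) ≠ ⟨r, hr'⟩ := by
    intro h
    have := congrArg Fin.val h
    simp only at this
    omega
  have hneg := neg_E7 r hr
  rw [x_of_lt hr', Matrix.mulVec_single_one, del_apply, Hd_eq, Finset.smul_sum]
  have e1 : ∀ i : Fin chevE7.rank, (chevE7.xMat F ⟨r, hr'⟩ t).col (Sum.inr ⟨125 - r, by show _ < 126; omega⟩) (Sum.inl i) =
      (((chevE7.coroot.getD r #[]).getD i 0 : ℤ) : F) * t := by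
    intro i
    rw [Matrix.col_apply]
    unfold ChevalleyDatum.xMat
    rw [Matrix.of_apply]
    dsimp only
    rw [if_neg hne, if_pos hneg.symm]
  have e2 : ∀ s : Fin chevE7.nroots, (chevE7.xMat F ⟨r, hr'⟩ t).col (Sum.inr ⟨125 - r, by show _ < 126; omega⟩) (Sum.inr s) =
      if s = ⟨125 - r, by show _ < 126; omega⟩ then 1 else if s = ⟨r, hr'⟩ then -(t ^ 2) else 0 := by
    intro s
    rw [Matrix.col_apply]
    unfold ChevalleyDatum.xMat
    rw [Matrix.of_apply]
    dsimp only
    rw [if_neg hne, if_pos hneg.symm]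
  simp only [e1, e2]
  have e3 : ∑ s : Fin chevE7.nroots, (if s = (⟨125 - r, by show _ < 126; omega⟩ : Fin chevE7.nroots) then (1 : F) else
      if s = ⟨r, hr'⟩ then -(t ^ 2) else 0) • NM F s = NM F (125 - r) - (t ^ 2) • NM F r := by
    rw [← Finset.sum_subset (Finset.subset_univ {(⟨125 - r, by show _ < 126; omega⟩ : Fin chevE7.nroots), ⟨r, hr'⟩}),
      Finset.sum_pair hne, if_pos rfl, if_neg (Ne.symm hne), if_pos rfl, one_smul, neg_smul, sub_eq_add_neg]
    intro s _ hs
    rw [Finset.mem_insert, Finset.mem_singleton, not_or] at hs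
    rw [if_neg hs.1, if_neg hs.2, zero_smul]
  rw [e3]
  have e4 : ∀ i : Fin chevE7.rank, ((((chevE7.coroot.getD r #[]).getD i 0 : ℤ) : F) * t) • Hi F (i : ℕ) =
      t • ((((chevE7.coroot.getD r #[]).getD i 0 : ℤ) : F) • Hi F (i : ℕ)) := by
    intro i
    rw [smul_smul, mul_comm]
  simp only [e4]
  abel

theorem del_x_inr {r s : ℕ} (hr : r < 126) (hs : s < 126) (hne : s ≠ 125 - r) (hne' : s ≠ r) (t : F) :
    del F (chevE7.x F r t *ᵥ Pi.single (Sum.inr ⟨s, hs⟩) 1) = NM F s + t • csM F r s := by
  have hr' : r < chevE7.nroots := hr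
  have hne2 : (⟨s, hs⟩ : Fin chevE7.nroots) ≠ ⟨r, hr'⟩ := fun h => hne' (congrArg Fin.val h)
  have hneg := neg_E7 r hr
  rw [x_of_lt hr', Matrix.mulVec_single_one, del_apply]
  have e1 : ∀ i : Fin chevE7.rank, (chevE7.xMat F ⟨r, hr'⟩ t).col (Sum.inr ⟨s, hs⟩) (Sum.inl i) = 0 := by
    intro i
    rw [Matrix.col_apply]
    unfold ChevalleyDatum.xMat
    rw [Matrix.of_apply]
    dsimp only
    rw [if_neg hne2, if_neg (by rw [hneg]; exact hne)]
  have e2 : ∀ v : Fin chevE7.nroots, (chevE7.xMat F ⟨r, hr'⟩ t).col (Sum.inr ⟨s, hs⟩) (Sum.inr v) =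
      (if v = ⟨s, hs⟩ then 1 else 0) + ((chevE7.chainCoeff r s v).map fun km => ((km.2 : ℤ) : F) * t ^ km.1).sum := by
    intro v
    rw [Matrix.col_apply]
    unfold ChevalleyDatum.xMat
    rw [Matrix.of_apply]
    dsimp only
    rw [if_neg hne2, if_neg (by rw [hneg]; exact hne)]
  simp only [e1, e2, zero_smul, Finset.sum_const_zero, zero_add, add_smul, Finset.sum_add_distrib, ite_smul, one_smul,
    Finset.sum_ite_eq', Finset.mem_univ, if_true]
  congr 1
  rcases h : cs r s with _ | ⟨u, c⟩
  · unfold csM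
    rw [h]
    dsimp only
    rw [smul_zero]
    refine Finset.sum_eq_zero fun v _ => ?_
    rw [chainCoeff_E7 hr hs, h]
    simp
  · have hu : u < 126 := by
      unfold cs at h
      by_cases h0 : lk (PC.getD r 0) s = 0
      · rw [if_pos h0] at h; exact absurd h (by simp)
      rw [if_neg h0, Option.some.injEq, Prod.mk.injEq] at h
      rcases PC_spec hr hs with ⟨h5, -⟩ | ⟨-, -, h5, -, -⟩
      · exact absurd h5 h0
      · rw [← h.1]; exact h5
    unfold csM
    rw [h]
    dsimp only
    rw [Finset.sum_eq_single ⟨u, hu⟩]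
    · rw [chainCoeff_E7 hr hs, h]
      dsimp only
      rw [if_pos rfl]
      simp [smul_smul, mul_comm]
    · intro v _ hv
      rw [chainCoeff_E7 hr hs, h]
      dsimp only
      rw [if_neg fun h' => hv (Fin.ext h'.symm)]
      simp
    · intro h; exact absurd (Finset.mem_univ _) h

/-! ### equivariance -/

theorem one_add_mul (t : F) (A B : Matrix D1 D1 F) : (1 + t • A) * B = B + t • (A * B) := by
  rw [Matrix.add_mul, Matrix.one_mul, Matrix.smul_mul]

theorem mul_one_add (t : F) (A B : Matrix D1 D1 F) : B * (1 + t • A) = B + t • (B * A) := by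
  rw [Matrix.mul_add, Matrix.mul_one, Matrix.mul_smul]

theorem del_x_basis (h2 : (2 : F) ≠ 0) {r : ℕ} (hr : r < 126) (t : F) (j : chevE7.Idx) :
    (1 + t • NM F r) * del F (Pi.single j 1) = del F (chevE7.x F r t *ᵥ Pi.single j 1) * (1 + t • NM F r) := by
  have hsq := NM_mul_self (F := F) hr
  rcases j with i | ⟨s, hs⟩
  · rw [del_inl, del_x_inl hr, one_add_mul, mul_one_add, Matrix.sub_mul, Matrix.smul_mul, hsq, smul_zero, sub_zero]
    have h1 := Hi_comm (F := F) hr i.2
    have h3 : Hi F i * NM F r = NM F r * Hi F i + ((chevE7.cartan i r : ℤ) : F) • NM F r := by rw [← h1]; abel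
    rw [h3, smul_add, smul_smul, mul_comm t]
    abel
  · have hs' : s < 126 := hs
    rw [del_inr]
    show (1 + t • NM F r) * NM F s = _
    by_cases h3 : s = r
    · subst h3
      rw [del_x_self hr, one_add_mul, mul_one_add]
    by_cases h4 : s = 125 - r
    · subst h4
      rw [del_x_neg hr, one_add_mul, mul_one_add, Matrix.sub_mul, Matrix.add_mul, Matrix.smul_mul, Matrix.smul_mul, hsq,
        smul_zero, sub_zero, Hd_NM hr]
      have h5 : NM F r * NM F (125 - r) = NM F (125 - r) * NM F r + Hd F r := by rw [← NM_comm_neg hr]; abel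
      rw [h5, smul_add, smul_add, smul_smul, pow_two]
      abel
    · rw [del_x_inr hr hs' h4 h3, one_add_mul, mul_one_add, Matrix.add_mul, Matrix.smul_mul, csM_NM h2 hr hs' h4,
        smul_zero, add_zero, ← NM_comm hr hs' h4, smul_sub]
      abel

theorem del_x (h2 : (2 : F) ≠ 0) {r : ℕ} (hr : r < 126) (t : F) (z : chevE7.Idx → F) :
    (1 + t • NM F r) * del F z = del F (chevE7.x F r t *ᵥ z) * (1 + t • NM F r) := by
  have hz : z = ∑ j, z j • (Pi.single j (1 : F) : chevE7.Idx → F) := by
    ext k
    simp [Finset.sum_apply, Pi.single_apply]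
  have h1 : del F (chevE7.x F r t *ᵥ z) = ∑ j, z j • del F (chevE7.x F r t *ᵥ Pi.single j 1) := by
    conv_lhs => rw [hz]
    rw [Matrix.mulVec_sum, map_sum]
    refine Finset.sum_congr rfl fun j _ => ?_
    rw [Matrix.mulVec_smul, map_smul]
  have h3 : del F z = ∑ j, z j • del F (Pi.single j 1) := by
    conv_lhs => rw [hz]
    rw [map_sum]
    exact Finset.sum_congr rfl fun j _ => map_smul _ _ _
  rw [h1, h3, Finset.mul_sum, Finset.sum_mul]
  refine Finset.sum_congr rfl fun j _ => ?_
  rw [Matrix.mul_smul, Matrix.smul_mul, del_x_basis h2 hr]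

theorem adM_xs (r : ℕ) (t : F) : adM F (xs F r t) = chevE7.x F r t := by
  rw [adM_apply]
  exact theta_stGen Cfsg.Agent.H944.E7Two.e7T.inList r t

/-- **equivariance** -/
theorem del_equi (h2 : (2 : F) ≠ 0) (g : Gh F) (z : chevE7.Idx → F) :
    rho F g * del F z = del F (adM F g *ᵥ z) * rho F g := by
  have h := mem_of_gens (F := F) (S :=
    { carrier := {g | ∀ z : chevE7.Idx → F, rho F g * del F z = del F (adM F g *ᵥ z) * rho F g}
      one_mem' := fun z => by rw [map_one, map_one, Matrix.one_mulVec, Matrix.one_mul, Matrix.mul_one]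
      mul_mem' := by
        intro a b ha hb z
        rw [map_mul, map_mul, Matrix.mul_assoc, hb z, ← Matrix.mul_assoc, ha, ← Matrix.mulVec_mulVec, Matrix.mul_assoc]
      inv_mem' := by
        intro a ha z
        have h1 := ha (adM F a⁻¹ *ᵥ z)
        rw [Matrix.mulVec_mulVec, ← map_mul, mul_inv_cancel, map_one, Matrix.one_mulVec] at h1
        have h3 : rho F a⁻¹ * rho F a = 1 := by rw [← map_mul, inv_mul_cancel, map_one]
        have h4 : rho F a * rho F a⁻¹ = 1 := by rw [← map_mul, mul_inv_cancel, map_one]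
        calc rho F a⁻¹ * del F z = rho F a⁻¹ * (del F z * rho F a) * rho F a⁻¹ := by
              rw [Matrix.mul_assoc, Matrix.mul_assoc (del F z), h4, Matrix.mul_one]
          _ = _ := by rw [← h1, ← Matrix.mul_assoc, h3, Matrix.one_mul] }) ?_ g
  · exact h z
  · intro r hr t z
    rw [rho_xs' hr, adM_xs]
    exact del_x h2 hr t z

end Cfsg.Agent.R2.PX
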